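import Mathlib
import Cfsg.Prelude.Def_Transfer
import Cfsg.Agent.Lib.OddLocal.SCN

/-! Odd-order automorphism groups of a two-group: elementary lemmas. -/

set_option autoImplicit false

namespace Cfsg.Agent.Lib.OddAutTwo

open Subgroup Cfsg
open scoped commutatorElement

variable {X : Type*} [Group X]

/-- A subgroup invariant under a set of automorphisms. -/
def Inv (A : Subgroup (MulAut X)) (H : Subgroup X) : Prop := ∀ φ ∈ A, ∀ x ∈ H, φ x ∈ H

theorem inv_of_characteristic (A : Subgroup (MulAut X)) (H : Subgroup X) [hH : H.Characteristic] :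
    Inv A H := by
  intro φ _ x hx
  rw [← hH.fixed φ] at hx
  exact hx

theorem pow_apply_iterate (f : MulAut X) (n : ℕ) (x : X) : (f ^ n) x = (⇑f)^[n] x := by
  induction n with
  | zero => rfl
  | succ n ih => rw [pow_succ', MulAut.mul_apply, ih, Function.iterate_succ_apply']

theorem odd_orderOf [Finite X] {A : Subgroup (MulAut X)} (hA : Odd (Nat.card A)) {φ : MulAut X} (hφ : φ ∈ A) :
    Odd (orderOf φ) := by
  refine hA.of_dvd_nat ?_
  have := orderOf_dvd_natCard (⟨φ, hφ⟩ : A)
  rwa [Subgroup.orderOf_mk] at this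

theorem mul_comm_of_sq {W : Subgroup X} (h2 : ∀ w ∈ W, w * w = 1) {a b : X} (ha : a ∈ W) (hb : b ∈ W) :
    a * b = b * a := by
  have i : ∀ w ∈ W, w⁻¹ = w := fun w hw => inv_eq_of_mul_eq_one_left (h2 w hw)
  calc a * b = (a * b)⁻¹ := (i _ (W.mul_mem ha hb)).symm
    _ = b * a := by rw [mul_inv_rev, i a ha, i b hb]

/-- An odd-order automorphism of a four group without fixed points permutes the involutions cyclically. -/
theorem four_orbit [Finite X] {W : Subgroup X} (h4 : Nat.card W = 4) (h2 : ∀ w ∈ W, w * w = 1)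
    {f : MulAut X} (hodd : Odd (orderOf f)) (hinv : ∀ w ∈ W, f w ∈ W)
    (hfix : ∀ w ∈ W, f w = w → w = 1) :
    (∀ w ∈ W, w * f w * f (f w) = 1 ∧ f (f (f w)) = w) ∧
      ∀ w ∈ W, w ≠ 1 → ∀ v ∈ W, v = 1 ∨ v = w ∨ v = f w ∨ v = f (f w) := by
  classical
  have key : ∀ w ∈ W, w ≠ 1 → (w * f w = f (f w)) ∧ ∀ v ∈ W, v = 1 ∨ v = w ∨ v = f w ∨ v = f (f w) := by
    intro w hw hw1
    have h1 : f w ≠ 1 := by simpa using hw1
    have h2' : f (f w) ≠ 1 := by simpa using hw1
    have hfw : f w ≠ w := fun h => hw1 (hfix w hw h)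
    have hffw : f (f w) ≠ f w := fun h => hfw (f.injective h)
    have hnn : f (f w) ≠ w := by
      intro h
      obtain ⟨k, hk⟩ := hodd
      have hit : ∀ j : ℕ, (f ^ (2 * j + 1)) w = f w := by
        intro j
        induction j with
        | zero => simp
        | succ j ih =>
          rw [show 2 * (j + 1) + 1 = 2 + (2 * j + 1) by ring, pow_add, MulAut.mul_apply, ih, pow_two,
            MulAut.mul_apply, h]
      have := hit k
      rw [← hk, pow_orderOf_eq_one] at this
      exact hfw this.symm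
    have hsub : ({1, w, f w, f (f w)} : Finset X) = (Set.toFinite (W : Set X)).toFinset := by
      refine Finset.eq_of_subset_of_card_le ?_ ?_
      · intro v hv
        simp only [Finset.mem_insert, Finset.mem_singleton] at hv
        rw [Set.Finite.mem_toFinset]
        rcases hv with rfl | rfl | rfl | rfl
        exacts [W.one_mem, hw, hinv w hw, hinv _ (hinv w hw)]
      · have : (Set.toFinite (W : Set X)).toFinset.card = 4 := by
          rw [← Nat.card_eq_card_finite_toFinset (Set.toFinite (W : Set X))]; exact h4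
        rw [this]
        simp [Finset.card_insert_of_notMem, Ne.symm hw1, Ne.symm h1, Ne.symm h2', Ne.symm hfw, Ne.symm hffw,
          Ne.symm hnn]
    have hall : ∀ v ∈ W, v = 1 ∨ v = w ∨ v = f w ∨ v = f (f w) := by
      intro v hv
      have : v ∈ ({1, w, f w, f (f w)} : Finset X) := by rw [hsub, Set.Finite.mem_toFinset]; exact hv
      simpa using this
    refine ⟨?_, hall⟩
    rcases hall _ (W.mul_mem hw (hinv w hw)) with h | h | h | h
    · exact absurd (mul_left_cancel (h.trans (h2 w hw).symm)) hfw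
    · exact absurd (mul_eq_left.1 h) h1
    · exact absurd (mul_eq_right.1 h) hw1
    · exact h
  refine ⟨fun w hw => ?_, fun w hw hw1 => (key w hw hw1).2⟩
  rcases eq_or_ne w 1 with rfl | hw1
  · simp
  have e := (key w hw hw1).1
  refine ⟨by rw [e]; exact h2 _ (hinv _ (hinv w hw)), ?_⟩
  have := congrArg f e
  rw [map_mul] at this
  rw [← this, ← e, mul_comm_of_sq h2 hw (hinv w hw), ← mul_assoc, h2 _ (hinv w hw), one_mul]

/-- An odd-order automorphism of an abelian two-subgroup fixing its involutions fixes it. -/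
theorem fixed_of_omega {B : Subgroup X} (hB : IsMulCommutative B) {φ : MulAut X} (hodd : Odd (orderOf φ))
    (hinv : ∀ x ∈ B, φ x ∈ B) (hom : ∀ x ∈ B, x * x = 1 → φ x = x) :
    ∀ (k : ℕ), ∀ x ∈ B, x ^ 2 ^ k = 1 → φ x = x := by
  intro k
  induction k with
  | zero => intro x hx h; rw [pow_zero, pow_one] at h; subst h; simp
  | succ k ih =>
    intro x hx h
    have h2 : φ (x * x) = x * x := ih _ (B.mul_mem hx hx) (by
      rw [← pow_two, ← pow_mul, ← pow_succ']; exact h)
    set c := x⁻¹ * φ x with hc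
    have hcB : c ∈ B := B.mul_mem (B.inv_mem hx) (hinv x hx)
    have comm : ∀ a ∈ B, ∀ b ∈ B, a * b = b * a := fun a ha b hb =>
      congrArg Subtype.val (hB.1.1 (⟨a, ha⟩ : B) ⟨b, hb⟩)
    have hcc : c * c = 1 := by
      rw [hc]
      calc x⁻¹ * φ x * (x⁻¹ * φ x) = x⁻¹ * (φ x * x⁻¹) * φ x := by group
        _ = x⁻¹ * (x⁻¹ * φ x) * φ x := by rw [comm _ (hinv x hx) _ (B.inv_mem hx)]
        _ = (x * x)⁻¹ * (φ x * φ x) := by group
        _ = 1 := by rw [← map_mul, h2, inv_mul_cancel]
    have hφc : φ c = c := hom c hcB hcc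
    have hφx : φ x = x * c := by rw [hc]; group
    have hit : ∀ n : ℕ, (φ ^ n) x = x * c ^ n := by
      intro n
      induction n with
      | zero => simp
      | succ n ihn => rw [pow_succ', MulAut.mul_apply, ihn, map_mul, map_pow, hφc, hφx, mul_assoc, ← pow_succ']
    obtain ⟨j, hj⟩ := hodd
    have h3 := hit (orderOf φ)
    rw [pow_orderOf_eq_one, MulAut.one_apply, left_eq_mul, hj, pow_succ, pow_mul,
      show c ^ 2 = 1 by rw [pow_two]; exact hcc, one_pow, one_mul] at h3
    rw [hφx, h3, mul_one]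

/-- Modulo a normal subgroup with abelian quotient, only the subgroup itself is fixed. -/
theorem mem_of_fix_mod [Finite X] (hX : IsPGroup 2 X) {A : Subgroup (MulAut X)} (hA : Odd (Nat.card A))
    (hXA : Subgroup.closure {g : X | ∃ φ ∈ A, ∃ x : X, g = x⁻¹ * φ x} = ⊤) (N : Subgroup X) [N.Normal]
    (hN : commutator X ≤ N) {y : X} (hy : ∀ φ ∈ A, y⁻¹ * φ y ∈ N) : y ∈ N := by
  classical
  letI : CommGroup (X ⧸ N) :=
    { (inferInstance : Group (X ⧸ N)) with
      mul_comm := fun a b => by
        induction a using QuotientGroup.induction_on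
        rename_i a
        induction b using QuotientGroup.induction_on
        rename_i b
        rw [← QuotientGroup.mk_mul, ← QuotientGroup.mk_mul, QuotientGroup.eq]
        have := hN (commutator_mem_commutator (mem_top b⁻¹) (mem_top a⁻¹))
        rw [commutatorElement_def] at this
        simpa [mul_inv_rev, mul_assoc] using this }
  haveI : Fintype A := Fintype.ofFinite A
  let nm : X →* X ⧸ N := ∏ ψ : A, (QuotientGroup.mk' N).comp (ψ : MulAut X).toMonoidHom
  have nm_def : ∀ x : X, nm x = ∏ ψ : A, ((((ψ : MulAut X) x : X)) : X ⧸ N) := fun x => by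
    simp [nm]
  have hker : nm = 1 := by
    refine MonoidHom.ext fun x => ?_
    have : Subgroup.closure {g : X | ∃ φ ∈ A, ∃ x : X, g = x⁻¹ * φ x} ≤ nm.ker := by
      rw [closure_le]
      rintro g ⟨φ, hφ, x, rfl⟩
      rw [SetLike.mem_coe, MonoidHom.mem_ker, map_mul, map_inv, inv_mul_eq_one, nm_def, nm_def]
      exact (Fintype.prod_equiv (Equiv.mulRight (⟨φ, hφ⟩ : A))
        (fun ψ : A => ((((ψ : MulAut X) (φ x) : X)) : X ⧸ N))
        (fun ψ : A => ((((ψ : MulAut X) x : X)) : X ⧸ N)) fun ψ => by simp).symm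
    rw [hXA] at this
    exact this (mem_top x)
  have hpow : (y : X ⧸ N) ^ Nat.card A = 1 := by
    have := DFunLike.congr_fun hker y
    rw [nm_def, Finset.prod_congr rfl (g := fun _ => (y : X ⧸ N))
      (fun (ψ : A) _ => ((QuotientGroup.eq).2 (hy (ψ : MulAut X) (SetLike.coe_mem ψ))).symm), Finset.prod_const, Finset.card_univ,
      ← Nat.card_eq_fintype_card] at this
    simpa using this
  obtain ⟨k, hk⟩ := (hX.to_quotient N) (y : X ⧸ N)
  have h1 : orderOf (y : X ⧸ N) ∣ 1 := by
    have hcop : Nat.Coprime (Nat.card A) (2 ^ k) :=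
      Nat.Coprime.pow_right k (Nat.coprime_two_right.2 hA)
    rw [← hcop.gcd_eq_one]
    exact Nat.dvd_gcd (orderOf_dvd_of_pow_eq_one hpow) (orderOf_dvd_of_pow_eq_one hk)
  exact (QuotientGroup.eq_one_iff y).1 (orderOf_eq_one_iff.1 (Nat.dvd_one.1 h1))

/-- A normal invariant pointwise fixed subgroup is central. -/
theorem le_center_of_fixed {A : Subgroup (MulAut X)}
    (hXA : Subgroup.closure {g : X | ∃ φ ∈ A, ∃ x : X, g = x⁻¹ * φ x} = ⊤) (D : Subgroup X) [D.Normal]
    (hfix : ∀ φ ∈ A, ∀ d ∈ D, φ d = d) : D ≤ center X := by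
  intro d hd
  rw [mem_center_iff]
  intro g
  have : (⊤ : Subgroup X) ≤ centralizer ({d} : Set X) := by
    rw [← hXA, closure_le]
    rintro _ ⟨φ, hφ, x, rfl⟩
    rw [SetLike.mem_coe, mem_centralizer_singleton_iff]
    have h := hfix φ hφ _ (‹D.Normal›.conj_mem d hd x)
    rw [map_mul, map_mul, map_inv, hfix φ hφ d hd] at h
    calc x⁻¹ * φ x * d = x⁻¹ * (φ x * d * (φ x)⁻¹) * φ x := by group
      _ = x⁻¹ * (x * d * x⁻¹) * φ x := by rw [h]
      _ = d * (x⁻¹ * φ x) := by group
  exact mem_centralizer_singleton_iff.1 (this (mem_top g))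

theorem mem_center_mod {N : Subgroup X} [N.Normal] {x : X} :
    x ∈ (center (X ⧸ N)).comap (QuotientGroup.mk' N) ↔ ∀ g : X, ⁅g, x⁆ ∈ N := by
  rw [mem_comap, mem_center_iff]
  refine ⟨fun h g => ?_, fun h q => ?_⟩
  · rw [← QuotientGroup.eq_one_iff, ← QuotientGroup.mk'_apply, map_commutatorElement,
      commutatorElement_eq_one_iff_mul_comm]
    exact h _
  · obtain ⟨g, rfl⟩ := QuotientGroup.mk'_surjective N q
    rw [← commutatorElement_eq_one_iff_mul_comm, ← map_commutatorElement, QuotientGroup.mk'_apply,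
      QuotientGroup.eq_one_iff]
    exact h g

/-- Above a normal subgroup there is an element of order two that is central modulo it. -/
theorem exists_center_mod [Finite X] (hX : IsPGroup 2 X) {N C : Subgroup X} [N.Normal] [C.Normal]
    (hNC : N ≤ C) (hne : ¬ C ≤ N) :
    ∃ x ∈ C, x ∉ N ∧ x * x ∈ N ∧ ∀ g : X, ⁅g, x⁆ ∈ N := by
  obtain ⟨c, hcC, hcN⟩ := SetLike.not_le_iff_exists.1 hne
  set M := C.map (QuotientGroup.mk' N) with hM
  haveI : M.Normal := Normal.map inferInstance _ (QuotientGroup.mk'_surjective N)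
  have hQ : IsPGroup 2 (ConjAct (X ⧸ N)) := hX.to_quotient N
  have hdvd : 2 ∣ Nat.card M := by
    obtain ⟨k, hk⟩ := IsPGroup.iff_card.1 ((hX.to_quotient N).to_subgroup M)
    refine hk ▸ dvd_pow_self 2 fun h0 => hcN ?_
    rw [h0, pow_zero] at hk
    have hb := card_eq_one.1 hk
    have hc : QuotientGroup.mk' N c ∈ M := mem_map_of_mem _ hcC
    rw [hb, mem_bot] at hc
    exact (QuotientGroup.eq_one_iff c).1 hc
  obtain ⟨m, hm, hm1⟩ := hQ.exists_fixed_point_of_prime_dvd_card_of_fixed_point M hdvd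
    (a := 1) (fun g => smul_one g)
  obtain ⟨x, hxC, hxm⟩ := m.2
  have hxT : x ∈ (center (X ⧸ N)).comap (QuotientGroup.mk' N) := by
    rw [mem_comap, mem_center_iff]
    intro q
    have h := congrArg Subtype.val (hm (ConjAct.toConjAct q))
    rw [ConjAct.Subgroup.val_conj_smul, ConjAct.smul_def, ConjAct.ofConjAct_toConjAct, ← hxm] at h
    exact mul_inv_eq_iff_eq_mul.1 h
  have hxN : x ∉ N := fun h => hm1.symm (Subtype.ext (by
    rw [← hxm, OneMemClass.coe_one, QuotientGroup.mk'_apply, QuotientGroup.eq_one_iff]; exact h))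
  obtain ⟨k, hk⟩ := hX x
  have hex : ∃ j, x ^ 2 ^ j ∈ N := ⟨k, by rw [hk]; exact N.one_mem⟩
  classical
  obtain ⟨j, hj⟩ : ∃ j, Nat.find hex = j + 1 := by
    have h0 : Nat.find hex ≠ 0 := fun h0 => hxN (by
      have := Nat.find_spec hex; simpa [h0] using this)
    exact ⟨Nat.find hex - 1, by omega⟩
  refine ⟨x ^ 2 ^ j, pow_mem hxC _, Nat.find_min hex (by omega), ?_,
    mem_center_mod.1 (pow_mem hxT _)⟩
  rw [← pow_two, ← pow_mul, ← pow_succ, ← hj]
  exact Nat.find_spec hex

/-- An element commuting with all commutators: central modulo a central subgroup. -/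
theorem commute_commutator {N : Subgroup X} (hN : N ≤ center X) {x : X} (hx : ∀ g : X, ⁅g, x⁆ ∈ N)
    {c : X} (hc : c ∈ commutator X) : Commute c x := by
  have hmul : ∀ g h : X, ⁅g * h, x⁆ = ⁅g, x⁆ * ⁅h, x⁆ := by
    intro g h
    have hz := mem_center_iff.1 (hN (hx h))
    calc ⁅g * h, x⁆ = g * ⁅h, x⁆ * (x * g⁻¹ * x⁻¹) := by simp [commutatorElement_def, mul_assoc]
      _ = ⁅g, x⁆ * ⁅h, x⁆ := by
        rw [hz ⁅g, x⁆, hz g]; simp [commutatorElement_def, mul_assoc]
  let f : X →* center X := MonoidHom.mk' (fun g => ⟨⁅g, x⁆, hN (hx g)⟩) fun g h => Subtype.ext (hmul g h)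
  have hcc : commutator X ≤ f.ker := by
    rw [_root_.commutator_def, commutator_le]
    intro g _ h _
    rw [MonoidHom.mem_ker, map_commutatorElement, commutatorElement_eq_one_iff_mul_comm]
    exact Subtype.ext (mem_center_iff.1 (hN (hx h)) _)
  have : ⁅c, x⁆ = 1 := congrArg Subtype.val (hcc hc)
  exact commutatorElement_eq_one_iff_mul_comm.1 this

/-- A normal elementary abelian subgroup extended by an involution. -/
theorem extend_elementary {W : Subgroup X} (hWn : W.Normal) (h2 : ∀ w ∈ W, w * w = 1) {t : X}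
    (ht : t * t = 1) (htW : t ∉ W) (hcent : ∀ w ∈ W, w * t = t * w) (hconj : ∀ y : X, ⁅y, t⁆ ∈ W) :
    ∃ E : Subgroup X, E.Normal ∧ IsElementaryAbelian 2 E ∧ W < E ∧ t ∈ E := by
  let E : Subgroup X :=
    { carrier := {x | x ∈ W ∨ x * t ∈ W}
      one_mem' := Or.inl W.one_mem
      mul_mem' := by
        rintro a b (ha | ha) (hb | hb)
        · exact Or.inl (W.mul_mem ha hb)
        · exact Or.inr (by rw [mul_assoc]; exact W.mul_mem ha hb)
        · refine Or.inr ?_
          have : a * b * t = a * t * b := by rw [mul_assoc, hcent b hb, mul_assoc]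
          rw [this]; exact W.mul_mem ha hb
        · refine Or.inl ?_
          have : a * b = a * t * (b * t) := by
            rw [mul_assoc a t, ← hcent (b * t) hb, mul_assoc b t t, ht, mul_one]
          rw [this]; exact W.mul_mem ha hb
      inv_mem' := by
        rintro a (ha | ha)
        · exact Or.inl (W.inv_mem ha)
        · refine Or.inr ?_
          have h := hcent (a * t)⁻¹ (W.inv_mem ha)
          have : a⁻¹ * t = (a * t)⁻¹ := by
            have ti : t⁻¹ = t := inv_eq_of_mul_eq_one_left ht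
            rw [mul_inv_rev, ti] at h ⊢
            calc a⁻¹ * t = t * (t * a⁻¹) * t := by rw [← mul_assoc, ht, one_mul]
              _ = t * (t * a⁻¹ * t) := by rw [mul_assoc]
              _ = t * (t * (t * a⁻¹)) := by rw [h]
              _ = _ := by rw [← mul_assoc t t, ht, one_mul]
          rw [this]; exact W.inv_mem ha }
  have memE : ∀ {x : X}, x ∈ E ↔ x ∈ W ∨ x * t ∈ W := Iff.rfl
  have hWE : W ≤ E := fun x hx => Or.inl hx
  have htE : t ∈ E := Or.inr (by rw [ht]; exact W.one_mem)
  have hsq : ∀ x ∈ E, x * x = 1 := by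
    rintro x (hx | hx)
    · exact h2 x hx
    · have h := hcent (x * t) hx
      calc x * x = x * (t * (x * t)) := by rw [← h, mul_assoc x t t, ht, mul_one]
        _ = x * t * (x * t) := by rw [← mul_assoc]
        _ = 1 := h2 _ hx
  refine ⟨E, ⟨fun x hx g => ?_⟩, ⟨⟨⟨fun a b => Subtype.ext (mul_comm_of_sq hsq a.2 b.2)⟩⟩,
    fun a ha => by rw [pow_two]; exact hsq a ha⟩, lt_of_le_not_ge hWE fun h => htW (h htE), htE⟩
  rcases memE.1 hx with hx | hx
  · exact hWE (hWn.conj_mem x hx g)
  · have h1 : g * (x * t) * g⁻¹ ∈ E := hWE (hWn.conj_mem _ hx g)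
    have h2' : g * t * g⁻¹ ∈ E := by
      have := E.mul_mem (hWE (hconj g)) htE
      simpa [commutatorElement_def, mul_assoc] using this
    have := E.mul_mem h1 (E.inv_mem h2')
    simpa [mul_assoc] using this

end Cfsg.Agent.Lib.OddAutTwo
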