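import Mathlib

/-! Orbit products of a family of endomorphisms of a four group under a fixed-point-free automorphism. -/

set_option autoImplicit false

namespace Cfsg.Agent.Lib.OddAutTwo

variable {X : Type*} [Group X]

/-- A four group with a cyclic permutation of its involutions. -/
structure FourCycle (W : Subgroup X) (α : MulAut X) : Prop where
  sq : ∀ w ∈ W, w * w = 1
  cen : W ≤ Subgroup.center X
  inv : ∀ w ∈ W, α w ∈ W
  fix : ∀ w ∈ W, α w = w → w = 1
  prod : ∀ w ∈ W, w * α w * α (α w) = 1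
  cube : ∀ w ∈ W, α (α (α w)) = w
  all : ∀ w ∈ W, w ≠ 1 → ∀ v ∈ W, v = 1 ∨ v = w ∨ v = α w ∨ v = α (α w)

/-- A family of endomorphisms of `W` indexed by `L`, compatible with `α`. -/
structure EndFamily (W : Subgroup X) (α : MulAut X) (L : Subgroup X) (m : X → X → X) : Prop where
  mem : ∀ x ∈ L, ∀ w ∈ W, m x w ∈ W
  left : ∀ x ∈ L, ∀ y ∈ L, ∀ w ∈ W, m (x * y) w = m x w * m y w
  right : ∀ x ∈ L, ∀ v ∈ W, ∀ w ∈ W, m x (v * w) = m x v * m x w
  invL : ∀ x ∈ L, α x ∈ L
  equiv : ∀ x ∈ L, ∀ w ∈ W, m (α x) (α w) = α (m x w)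

variable {W : Subgroup X} {α : MulAut X} {L : Subgroup X} {m : X → X → X}

theorem FourCycle.comm (hc : FourCycle W α) {v : X} (hv : v ∈ W) (g : X) : g * v = v * g :=
  Subgroup.mem_center_iff.1 (hc.cen hv) g

theorem EndFamily.one_right (hm : EndFamily W α L m) {x : X} (hx : x ∈ L) : m x 1 = 1 := by
  have h := hm.right x hx 1 W.one_mem 1 W.one_mem
  rw [one_mul] at h
  exact left_eq_mul.1 h

/-- The orbit product. -/
def orbitProd (α : MulAut X) (m : X → X → X) (x w : X) : X :=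
  m x w * α (m x (α (α w))) * α (α (m x (α w)))

theorem EndFamily.map_left (hc : FourCycle W α) (hm : EndFamily W α L m) {x w : X} (hx : x ∈ L)
    (hw : w ∈ W) : m (α x) w = α (m x (α (α w))) := by
  have h := hm.equiv x hx _ (hc.inv _ (hc.inv w hw))
  rwa [hc.cube w hw] at h

theorem EndFamily.map_left₂ (hc : FourCycle W α) (hm : EndFamily W α L m) {x w : X} (hx : x ∈ L)
    (hw : w ∈ W) : m (α (α x)) w = α (α (m x (α w))) := by
  rw [hm.map_left hc (hm.invL x hx) hw, hm.map_left hc hx (hc.inv _ (hc.inv w hw)), hc.cube _ (hc.inv w hw)]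

theorem EndFamily.orbit_eq (hc : FourCycle W α) (hm : EndFamily W α L m) {x w : X} (hx : x ∈ L)
    (hw : w ∈ W) : m (x * α x * α (α x)) w = orbitProd α m x w := by
  have h1 := hm.invL x hx
  rw [hm.left _ (L.mul_mem hx h1) _ (hm.invL _ h1) _ hw, hm.left _ hx _ h1 _ hw, hm.map_left hc hx hw,
    hm.map_left₂ hc hx hw, orbitProd]

theorem EndFamily.orbit_mem (hc : FourCycle W α) (hm : EndFamily W α L m) {x w : X} (hx : x ∈ L)
    (hw : w ∈ W) : orbitProd α m x w ∈ W := by
  rw [← hm.orbit_eq hc hx hw]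
  exact hm.mem _ (L.mul_mem (L.mul_mem hx (hm.invL x hx)) (hm.invL _ (hm.invL x hx))) _ hw

theorem EndFamily.orbit_comm (hc : FourCycle W α) (hm : EndFamily W α L m) {x w : X} (hx : x ∈ L)
    (hw : w ∈ W) : orbitProd α m x (α w) = α (orbitProd α m x w) := by
  have a1 := hc.inv w hw
  have a2 := hc.inv _ a1
  have m0 := hm.mem x hx w hw
  have m1 := hm.mem x hx _ a1
  have m2 := hm.mem x hx _ a2
  rw [orbitProd, orbitProd, hc.cube w hw, map_mul, map_mul, hc.cube _ m1]
  calc m x (α w) * α (m x w) * α (α (m x (α (α w))))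
      = m x (α w) * (α (m x w) * α (α (m x (α (α w))))) := mul_assoc _ _ _
    _ = _ := (hc.comm m1 _).symm

theorem EndFamily.orbit_invariant (hc : FourCycle W α) (hm : EndFamily W α L m) {x w : X} (hx : x ∈ L)
    (hw : w ∈ W) : orbitProd α m (α x) w = orbitProd α m x w := by
  have a1 := hc.inv w hw
  have a2 := hc.inv _ a1
  have m0 := hm.mem x hx w hw
  have m1 := hm.mem x hx _ a1
  have m2 := hm.mem x hx _ a2
  rw [orbitProd, hm.map_left hc hx hw, hm.map_left hc hx a1, hm.map_left hc hx a2, hc.cube w hw,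
    hc.cube _ m0, orbitProd]
  exact (hc.comm m0 _).trans (mul_assoc _ _ _).symm

theorem EndFamily.orbit_left (hc : FourCycle W α) (hm : EndFamily W α L m) {x y w : X} (hx : x ∈ L)
    (hy : y ∈ L) (hw : w ∈ W) :
    orbitProd α m (x * y) w = orbitProd α m x w * orbitProd α m y w := by
  have a1 := hc.inv w hw
  have a2 := hc.inv _ a1
  unfold orbitProd
  rw [hm.left x hx y hy w hw, hm.left x hx y hy _ a1, hm.left x hx y hy _ a2, map_mul, map_mul, map_mul]
  have y0 := hm.mem y hy w hw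
  have y2 := hc.inv _ (hm.mem y hy _ a2)
  set u0 := m x w
  set u2 := α (m x (α (α w)))
  set u1 := α (α (m x (α w)))
  set v0 := m y w
  set v2 := α (m y (α (α w)))
  set v1 := α (α (m y (α w)))
  calc u0 * v0 * (u2 * v2) * (u1 * v1) = u0 * (v0 * u2) * (v2 * u1) * v1 := by simp only [mul_assoc]
    _ = u0 * (u2 * v0) * (u1 * v2) * v1 := by rw [hc.comm y0 u2, hc.comm y2 u1]
    _ = u0 * u2 * (v0 * u1) * v2 * v1 := by simp only [mul_assoc]
    _ = u0 * u2 * (u1 * v0) * v2 * v1 := by rw [hc.comm y0 u1]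
    _ = _ := by simp only [mul_assoc]

/-- A member with trivial orbit product is zero or injective. -/
theorem EndFamily.eq_one_of_orbit (hc : FourCycle W α) (hm : EndFamily W α L m) {x : X} (hx : x ∈ L)
    (hS : ∀ w ∈ W, orbitProd α m x w = 1) {w : X} (hw : w ∈ W) (hw1 : w ≠ 1) (h : m x w = 1) :
    ∀ v ∈ W, m x v = 1 := by
  have a1 := hc.inv w hw
  have a2 := hc.inv _ a1
  have e : m x w * m x (α w) * m x (α (α w)) = 1 := by
    rw [← hm.right x hx w hw _ a1, ← hm.right x hx _ (W.mul_mem hw a1) _ a2, hc.prod w hw,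
      hm.one_right hx]
  rw [h, one_mul] at e
  have heq : m x (α (α w)) = m x (α w) := by
    rw [← inv_eq_of_mul_eq_one_right e]
    exact inv_eq_of_mul_eq_one_left (hc.sq _ (hm.mem x hx _ a1))
  have hS' := hS w hw
  rw [orbitProd, h, one_mul, heq] at hS'
  have hv := hc.prod _ (hm.mem x hx _ a1)
  rw [mul_assoc, hS', mul_one] at hv
  intro v hv'
  rcases hc.all w hw hw1 v hv' with rfl | rfl | rfl | rfl
  exacts [hm.one_right hx, h, hv, heq ▸ hv]

/-- A nonzero family contains an injective member. -/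
theorem EndFamily.exists_injective (hc : FourCycle W α) (hm : EndFamily W α L m) {x : X} (hx : x ∈ L)
    (hne : ∃ w ∈ W, m x w ≠ 1) : ∃ y ∈ L, ∀ w ∈ W, m y w = 1 → w = 1 := by
  obtain ⟨v, hv, hvne⟩ := hne
  by_cases hS : ∀ w ∈ W, orbitProd α m x w = 1
  · exact ⟨x, hx, fun w hw h => by_contra fun hw1 => hvne (hm.eq_one_of_orbit hc hx hS hw hw1 h v hv)⟩
  push Not at hS
  obtain ⟨u, hu, hune⟩ := hS
  refine ⟨x * α x * α (α x), L.mul_mem (L.mul_mem hx (hm.invL x hx)) (hm.invL _ (hm.invL x hx)),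
    fun w hw h => by_contra fun hw1 => hune ?_⟩
  rw [hm.orbit_eq hc hx hw] at h
  rcases hc.all w hw hw1 u hu with rfl | rfl | rfl | rfl
  · rw [orbitProd, hm.one_right hx, map_one, map_one, hm.one_right hx]
    simp
  · exact h
  · rw [hm.orbit_comm hc hx hw, h, map_one]
  · rw [hm.orbit_comm hc hx (hc.inv w hw), hm.orbit_comm hc hx hw, h, map_one, map_one]

end Cfsg.Agent.Lib.OddAutTwo
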