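import Mathlib
import Cfsg.Agent.Lib.OddAutTwo.Basic
import Cfsg.Agent.Lib.OddAutTwo.Orbit

/-! The involutions of an invariant normal abelian subgroup moved by odd-order automorphisms. -/

set_option autoImplicit false

namespace Cfsg.Agent.Lib.OddAutTwo

open Subgroup Cfsg
open scoped commutatorElement

variable {X : Type*} [Group X] [Finite X]

/-- A maximal element of the invariant normal abelian subgroups containing a given one. -/
def MaxAbelian (A : Subgroup (MulAut X)) (B : Subgroup X) : Prop :=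
  (B.Normal ∧ Inv A B ∧ IsMulCommutative B) ∧
    ∀ H : Subgroup X, H.Normal → Inv A H → IsMulCommutative H → B ≤ H → H ≤ B

theorem exists_maxAbelian (A : Subgroup (MulAut X)) {D : Subgroup X} (hn : D.Normal) (hi : Inv A D)
    (hc : IsMulCommutative D) : ∃ B, D ≤ B ∧ MaxAbelian A B := by
  obtain ⟨B, hDB, hB⟩ := Finite.exists_le_maximal
    (p := fun H : Subgroup X => H.Normal ∧ Inv A H ∧ IsMulCommutative H) (a := D) ⟨hn, hi, hc⟩
  exact ⟨B, hDB, hB.prop, fun H h1 h2 h3 h4 => hB.le_of_ge ⟨h1, h2, h3⟩ h4⟩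

theorem inv_pow_mem {A : Subgroup (MulAut X)} {H : Subgroup X} (hi : Inv A H) {φ : MulAut X} (hφ : φ ∈ A)
    (n : ℕ) {x : X} (hx : x ∈ H) : (φ ^ n) x ∈ H := hi _ (A.pow_mem hφ n) x hx

/-- The involutions of a moved subgroup form a four group permuted cyclically. -/
theorem exists_fourCycle (hX : IsPGroup 2 X) {A : Subgroup (MulAut X)} (hA : Odd (Nat.card A))
    (hE : ∀ E : Subgroup X, E.Normal → IsElementaryAbelian 2 E → Nat.card E ≤ 4)
    {B : Subgroup X} (hBn : B.Normal) (hBi : Inv A B) (hBc : IsMulCommutative B)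
    (hmv : ∃ φ ∈ A, ∃ b ∈ B, φ b ≠ b) :
    ∃ W : Subgroup X, (∀ w, w ∈ W ↔ w ∈ B ∧ w * w = 1) ∧ W.Normal ∧ Inv A W ∧ Nat.card W = 4 ∧
      (∀ φ ∈ A, (∀ w ∈ W, φ w = w) ∨ ∀ w ∈ W, φ w = w → w = 1) ∧
      ∃ α ∈ A, FourCycle W α := by
  have comm : ∀ a ∈ B, ∀ b ∈ B, a * b = b * a := fun a ha b hb =>
    congrArg Subtype.val (hBc.1.1 (⟨a, ha⟩ : B) ⟨b, hb⟩)
  let W : Subgroup X :=
    { carrier := {w | w ∈ B ∧ w * w = 1}
      one_mem' := ⟨B.one_mem, one_mul 1⟩
      mul_mem' := fun {a b} ha hb => ⟨B.mul_mem ha.1 hb.1, by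
        calc a * b * (a * b) = a * (b * a) * b := by simp only [mul_assoc]
          _ = a * (a * b) * b := by rw [comm b hb.1 a ha.1]
          _ = a * a * (b * b) := by simp only [mul_assoc]
          _ = 1 := by rw [ha.2, hb.2, one_mul]⟩
      inv_mem' := fun {a} ha => ⟨B.inv_mem ha.1, by rw [← mul_inv_rev, ha.2, inv_one]⟩ }
  have memW : ∀ w, w ∈ W ↔ w ∈ B ∧ w * w = 1 := fun w => Iff.rfl
  have hWn : W.Normal := ⟨fun w hw g => ⟨hBn.conj_mem w hw.1 g, by
    rw [show g * w * g⁻¹ * (g * w * g⁻¹) = g * (w * w) * g⁻¹ by group, hw.2, mul_one, mul_inv_cancel]⟩⟩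
  have hWi : Inv A W := fun φ hφ w hw => ⟨hBi φ hφ w hw.1, by rw [← map_mul, hw.2, map_one]⟩
  have h2 : ∀ w ∈ W, w * w = 1 := fun w hw => hw.2
  have hle : Nat.card W ≤ 4 := hE W hWn ⟨⟨⟨fun a b => Subtype.ext (mul_comm_of_sq h2 a.2 b.2)⟩⟩,
    fun a ha => by rw [pow_two]; exact h2 a ha⟩
  obtain ⟨α, hα, b, hb, hαb⟩ := hmv
  obtain ⟨u, hu, hαu⟩ : ∃ u ∈ W, α u ≠ u := by
    by_contra h
    push Not at h
    obtain ⟨k, hk⟩ := hX b
    exact hαb (fixed_of_omega hBc (odd_orderOf hA hα) (hBi α hα) (fun x hx hxx => h x ⟨hx, hxx⟩) k b hb hk)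
  have hcard : Nat.card W = 4 := by
    classical
    have hu1 : u ≠ 1 := fun h => hαu (by rw [h, map_one])
    have hαu1 : α u ≠ 1 := by simpa using hu1
    have h3 : 3 ≤ Nat.card W := by
      have hsub : ({1, u, α u} : Finset X) ⊆ (Set.toFinite (W : Set X)).toFinset := by
        intro v hv
        simp only [Finset.mem_insert, Finset.mem_singleton] at hv
        rw [Set.Finite.mem_toFinset]
        rcases hv with rfl | rfl | rfl
        exacts [W.one_mem, hu, hWi α hα u hu]
      have := Finset.card_le_card hsub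
      rw [← Nat.card_eq_card_finite_toFinset (Set.toFinite (W : Set X))] at this
      simpa [Finset.card_insert_of_notMem, Ne.symm hu1, Ne.symm hαu1, Ne.symm hαu] using this
    obtain ⟨k, hk⟩ := IsPGroup.iff_card.1 (hX.to_subgroup W)
    rw [hk] at h3 hle ⊢
    match k, h3, hle with
    | 0, h3, _ => simp at h3
    | 1, h3, _ => simp at h3
    | 2, _, _ => rfl
    | n + 3, _, hle => rw [pow_add] at hle; have := Nat.one_le_two_pow (n := n); omega
  have hdich : ∀ φ ∈ A, (∀ w ∈ W, φ w = w) ∨ ∀ w ∈ W, φ w = w → w = 1 := by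
    classical
    intro φ hφ
    refine or_iff_not_imp_right.2 fun h => ?_
    push Not at h
    obtain ⟨w, hw, hfw, hw1⟩ := h
    intro v hv
    by_contra hne
    have hv1 : v ≠ 1 := fun h => hne (by rw [h, map_one])
    have hvw : v ≠ w := fun h => hne (by rw [h, hfw])
    have hfv1 : φ v ≠ 1 := by simpa using hv1
    have hfvw : φ v ≠ w := fun h => hvw (φ.injective (h.trans hfw.symm))
    have hall : ({1, w, v, φ v} : Finset X) = (Set.toFinite (W : Set X)).toFinset := by
      refine Finset.eq_of_subset_of_card_le ?_ ?_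
      · intro z hz
        simp only [Finset.mem_insert, Finset.mem_singleton] at hz
        rw [Set.Finite.mem_toFinset]
        rcases hz with rfl | rfl | rfl | rfl
        exacts [W.one_mem, hw, hv, hWi φ hφ v hv]
      · rw [← Nat.card_eq_card_finite_toFinset (Set.toFinite (W : Set X))]
        rw [show Nat.card ((W : Set X) : Type _) = 4 from hcard]
        simp [Finset.card_insert_of_notMem, Ne.symm hw1, Ne.symm hv1, Ne.symm hvw, Ne.symm hfv1,
          Ne.symm hfvw, Ne.symm hne]
    have hvw' : φ v = v * w := by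
      have : v * w ∈ ({1, w, v, φ v} : Finset X) := by rw [hall, Set.Finite.mem_toFinset]; exact W.mul_mem hv hw
      simp only [Finset.mem_insert, Finset.mem_singleton] at this
      rcases this with h | h | h | h
      · exact absurd (mul_right_cancel (h.trans (h2 w hw).symm)) hvw
      · exact absurd (mul_eq_right.1 h) hv1
      · exact absurd (mul_eq_left.1 h) hw1
      · exact h.symm
    have hit : ∀ n : ℕ, (φ ^ n) v = v * w ^ n := by
      intro n
      induction n with
      | zero => simp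
      | succ n ih => rw [pow_succ', MulAut.mul_apply, ih, map_mul, map_pow, hfw, hvw', mul_assoc, ← pow_succ']
    obtain ⟨j, hj⟩ := odd_orderOf hA hφ
    have h3 := hit (orderOf φ)
    rw [pow_orderOf_eq_one, MulAut.one_apply, left_eq_mul, hj, pow_succ, pow_mul,
      show w ^ 2 = 1 by rw [pow_two]; exact h2 w hw, one_pow, one_mul] at h3
    exact hw1 h3
  have hfix : ∀ w ∈ W, α w = w → w = 1 := (hdich α hα).resolve_left fun h => hαu (h u hu)
  obtain ⟨hprod, hall⟩ := four_orbit hcard h2 (odd_orderOf hA hα) (hWi α hα) hfix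
  have hcen : W ≤ center X := by
    haveI := hWn
    obtain ⟨x, hxW, hx1, -, hxc⟩ := exists_center_mod hX (N := ⊥) (C := W) bot_le
      (fun h => hαu (by rw [mem_bot.1 (h hu), map_one]))
    have hxz : x ∈ center X := mem_center_iff.2 fun g =>
      commutatorElement_eq_one_iff_mul_comm.1 (mem_bot.1 (hxc g))
    intro v hv
    rcases hall x hxW (fun h => hx1 (mem_bot.2 h)) v hv with rfl | rfl | rfl | rfl
    exacts [one_mem _, hxz, inv_of_characteristic A (center X) α hα _ hxz,
      inv_of_characteristic A (center X) α hα _ (inv_of_characteristic A (center X) α hα _ hxz)]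
  exact ⟨W, memW, hWn, hWi, hcard, hdich, α, hα, ⟨h2, hcen, hWi α hα, hfix,
    fun w hw => (hprod w hw).1, fun w hw => (hprod w hw).2, hall⟩⟩

/-- With no invariant normal abelian subgroup above a central `N`, the class is at most two. -/
theorem commutator_le_of_maximal (hX : IsPGroup 2 X) {A : Subgroup (MulAut X)} {N : Subgroup X}
    (hNn : N.Normal) (hNi : Inv A N) (hN : N ≤ center X)
    (hmax : ∀ H : Subgroup X, H.Normal → Inv A H → IsMulCommutative H → N ≤ H → H ≤ N) :
    commutator X ≤ N := by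
  haveI := hNn
  set T := (center (X ⧸ N)).comap (QuotientGroup.mk' N)
  set C := commutator X ⊔ N
  have hCi : Inv A C := by
    intro φ hφ x hx
    have h : C ≤ C.comap φ.toMonoidHom := sup_le
      (fun y hy => le_sup_left (a := commutator X) (b := N) (inv_of_characteristic A _ φ hφ y hy))
      (fun y hy => le_sup_right (a := commutator X) (b := N) (hNi φ hφ y hy))
    exact h hx
  haveI : C.Normal := inferInstance
  by_contra hne
  obtain ⟨x, hxC, hxN, -, hxc⟩ := exists_center_mod hX (N := N) (C := C) le_sup_right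
    (fun h => hne (le_sup_left.trans h))
  let H := T ⊓ C
  have hHc : IsMulCommutative H := by
    refine ⟨⟨fun a b => Subtype.ext ?_⟩⟩
    have ha := mem_center_mod.1 a.2.1
    have : C ≤ centralizer ({(a : X)} : Set X) := sup_le
      (fun c hc => mem_centralizer_singleton_iff.2 (commute_commutator hN ha hc).eq)
      (fun c hc => mem_centralizer_singleton_iff.2 (mem_center_iff.1 (hN hc) _).symm)
    exact (mem_centralizer_singleton_iff.1 (this b.2.2)).symm
  have hHi : Inv A H := fun φ hφ y hy => ⟨mem_center_mod.2 fun g => by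
    have := hNi φ hφ _ (mem_center_mod.1 hy.1 (φ.symm g))
    rwa [map_commutatorElement, MulEquiv.apply_symm_apply] at this, hCi φ hφ y hy.2⟩
  have hNH : N ≤ H := le_inf (fun n hn => mem_center_mod.2 fun g => by
    rw [commutatorElement_eq_one_iff_mul_comm.2 (mem_center_iff.1 (hN hn) g)]; exact N.one_mem)
    le_sup_right
  exact hxN (hmax H inferInstance hHi hHc hNH ⟨mem_center_mod.2 hxc, hxC⟩)

end Cfsg.Agent.Lib.OddAutTwo
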