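import Mathlib
import Cfsg.Agent.Lib.OddAutTwo.Omega

/-! A two-group whose odd-order automorphisms move an invariant normal abelian subgroup. -/

set_option autoImplicit false

namespace Cfsg.Agent.Lib.OddAutTwo

open Subgroup Cfsg
open scoped commutatorElement

variable {X : Type*} [Group X]

/-- The hypotheses collected for a moved maximal invariant normal abelian subgroup. -/
structure MovedData (A : Subgroup (MulAut X)) (B W : Subgroup X) (α : MulAut X) : Prop where
  bn : B.Normal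
  bi : Inv A B
  bc : IsMulCommutative B
  bmax : ∀ H : Subgroup X, H.Normal → Inv A H → IsMulCommutative H → B ≤ H → H ≤ B
  memW : ∀ w, w ∈ W ↔ w ∈ B ∧ w * w = 1
  wn : W.Normal
  wi : Inv A W
  card : Nat.card W = 4
  dich : ∀ φ ∈ A, (∀ w ∈ W, φ w = w) ∨ ∀ w ∈ W, φ w = w → w = 1
  αA : α ∈ A
  cyc : FourCycle W α
  noExt : ∀ t : X, t * t = 1 → (∀ y : X, ⁅y, t⁆ ∈ W) → t ∈ W

variable {A : Subgroup (MulAut X)} {B W : Subgroup X} {α : MulAut X}

namespace MovedData

theorem comm (h : MovedData A B W α) {a b : X} (ha : a ∈ B) (hb : b ∈ B) : a * b = b * a :=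
  congrArg Subtype.val (h.bc.1.1 (⟨a, ha⟩ : B) ⟨b, hb⟩)

theorem mem_B (h : MovedData A B W α) {w : X} (hw : w ∈ W) : w ∈ B := ((h.memW w).1 hw).1

theorem sq_one (h : MovedData A B W α) {w : X} (hw : w ∈ W) : w * w = 1 := ((h.memW w).1 hw).2

theorem comm_mem (h : MovedData A B W α) (x : X) {b : X} (hb : b ∈ B) : ⁅x, b⁆ ∈ B :=
  B.mul_mem (h.bn.conj_mem b hb x) (B.inv_mem hb)

theorem comm_W (h : MovedData A B W α) (x : X) {w : X} (hw : w ∈ W) : ⁅x, w⁆ = 1 :=
  commutatorElement_eq_one_iff_mul_comm.2 (h.cyc.comm hw x)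

theorem comm_mul_right (h : MovedData A B W α) (x : X) {a b : X} (ha : a ∈ B) (hb : b ∈ B) :
    ⁅x, a * b⁆ = ⁅x, a⁆ * ⁅x, b⁆ := by
  calc ⁅x, a * b⁆ = ⁅x, a⁆ * (a * ⁅x, b⁆ * a⁻¹) := by simp [commutatorElement_def, mul_assoc]
    _ = _ := by rw [h.comm ha (h.comm_mem x hb)]; simp [mul_assoc]

theorem comm_pow_right (h : MovedData A B W α) (x : X) {a : X} (ha : a ∈ B) (n : ℕ) :
    ⁅x, a ^ n⁆ = ⁅x, a⁆ ^ n := by
  induction n with
  | zero => simp
  | succ n ih => rw [pow_succ, h.comm_mul_right x (pow_mem ha n) ha, ih, pow_succ]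

theorem mul_pow' (h : MovedData A B W α) {a b : X} (ha : a ∈ B) (hb : b ∈ B) (n : ℕ) :
    (a * b) ^ n = a ^ n * b ^ n :=
  (show Commute a b from h.comm ha hb).mul_pow n

/-- The commutator of a product. -/
theorem comm_mul_left (x y b : X) : ⁅x * y, b⁆ = x * ⁅y, b⁆ * x⁻¹ * ⁅x, b⁆ := by
  simp [commutatorElement_def, mul_assoc]

theorem exists_exp [Finite X] (h : MovedData A B W α) (hX : IsPGroup 2 X) :
    ∃ a : ℕ, 1 ≤ a ∧ (∀ b ∈ B, b ^ 2 ^ a = 1) ∧ ∃ b ∈ B, b ^ 2 ^ (a - 1) ≠ 1 := by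
  classical
  obtain ⟨k, hk⟩ := IsPGroup.iff_card.1 (hX.to_subgroup B)
  have hex : ∃ a, ∀ b ∈ B, b ^ 2 ^ a = 1 := ⟨k, fun b hb => by
    rw [← hk]; exact congrArg Subtype.val (pow_card_eq_one' (x := (⟨b, hb⟩ : B)))⟩
  have h1 : 1 ≤ Nat.find hex := by
    by_contra h0
    have := Nat.find_spec hex
    rw [show Nat.find hex = 0 by omega] at this
    have hb : B = ⊥ := (Subgroup.eq_bot_iff_forall B).2 fun b hb => by simpa using this b hb
    have hle : W ≤ ⊥ := fun w hw => hb ▸ h.mem_B hw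
    rw [le_bot_iff] at hle
    have h4 := h.card
    rw [hle, Subgroup.card_bot] at h4
    omega
  refine ⟨Nat.find hex, h1, Nat.find_spec hex, ?_⟩
  have := Nat.find_min hex (show Nat.find hex - 1 < Nat.find hex by omega)
  push Not at this
  exact this

/-- An `α`-invariant nontrivial subgroup of `W` is `W`. -/
theorem irr (h : MovedData A B W α) {H : Subgroup X} (hHW : H ≤ W) (hi : ∀ x ∈ H, α x ∈ H)
    {w : X} (hw : w ∈ H) (hw1 : w ≠ 1) : H = W := by
  refine le_antisymm hHW fun v hv => ?_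
  rcases h.cyc.all w (hHW hw) hw1 v hv with rfl | rfl | rfl | rfl
  exacts [H.one_mem, hw, hi w hw, hi _ (hi w hw)]

/-- The power map onto `W`: surjectivity. -/
theorem pow_surj (h : MovedData A B W α) {c : ℕ} (hc : ∀ b ∈ B, b ^ c * b ^ c = 1)
    (hne : ∃ b ∈ B, b ^ c ≠ 1) : ∀ w ∈ W, ∃ b ∈ B, b ^ c = w := by
  let H : Subgroup X :=
    { carrier := {w | ∃ b ∈ B, b ^ c = w}
      one_mem' := ⟨1, B.one_mem, one_pow c⟩
      mul_mem' := by
        rintro _ _ ⟨a, ha, rfl⟩ ⟨b, hb, rfl⟩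
        exact ⟨a * b, B.mul_mem ha hb, h.mul_pow' ha hb c⟩
      inv_mem' := by
        rintro _ ⟨a, ha, rfl⟩
        exact ⟨a⁻¹, B.inv_mem ha, inv_pow a c⟩ }
  have hHW : H ≤ W := by
    rintro _ ⟨b, hb, rfl⟩
    exact (h.memW _).2 ⟨pow_mem hb c, hc b hb⟩
  obtain ⟨b, hb, hb1⟩ := hne
  have := h.irr hHW (fun x ⟨b, hb, e⟩ => ⟨α b, h.bi α h.αA b hb, by rw [← map_pow, e]⟩) ⟨b, hb, rfl⟩ hb1
  intro w hw
  rw [← this] at hw
  exact hw

/-- The kernel of the power map consists of squares. -/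
theorem pow_ker [Finite X] (h : MovedData A B W α) {c : ℕ} (hc : ∀ b ∈ B, b ^ c * b ^ c = 1)
    (hne : ∃ b ∈ B, b ^ c ≠ 1) {b : X} (hb : b ∈ B) (hb1 : b ^ c = 1) : ∃ e ∈ B, b = e * e := by
  let f : B →* X := MonoidHom.mk' (fun b => (b : X) ^ c) fun a b => h.mul_pow' a.2 b.2 c
  let s : B →* B := MonoidHom.mk' (fun b => b * b) fun a b => by
    apply Subtype.ext
    have := h.mul_pow' a.2 b.2 2
    simpa [pow_two] using this
  have hle : s.range ≤ f.ker := by
    rintro _ ⟨b, rfl⟩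
    show ((b * b : B) : X) ^ c = 1
    rw [Subgroup.coe_mul, h.mul_pow' b.2 b.2 c]
    exact hc b b.2
  have hrange : f.range = W := le_antisymm
    (by rintro _ ⟨b, rfl⟩; exact (h.memW _).2 ⟨pow_mem b.2 c, hc b b.2⟩)
    (fun w hw => by obtain ⟨b, hb, rfl⟩ := h.pow_surj hc hne w hw; exact ⟨⟨b, hb⟩, rfl⟩)
  have hsker : s.ker = W.subgroupOf B := by
    ext b
    rw [MonoidHom.mem_ker, mem_subgroupOf, h.memW]
    exact ⟨fun e => ⟨b.2, congrArg Subtype.val e⟩, fun e => Subtype.ext e.2⟩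
  have hWB : W ≤ B := fun w hw => h.mem_B hw
  have e1 := f.ker.card_mul_index
  rw [Subgroup.index_ker, hrange, h.card] at e1
  have e2 := s.ker.card_mul_index
  rw [Subgroup.index_ker, hsker, Nat.card_congr (Subgroup.subgroupOfEquivOfLe hWB).toEquiv, h.card] at e2
  have heq : s.range = f.ker := Subgroup.eq_of_le_of_card_ge hle (by omega)
  have hmem : (⟨b, hb⟩ : B) ∈ f.ker := hb1
  rw [← heq] at hmem
  obtain ⟨e, he⟩ := hmem
  exact ⟨e, e.2, (congrArg Subtype.val he).symm⟩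

end MovedData

/-- The exponent data of a moved subgroup of exponent `2 * c`, with `c = 2 * d`. -/
structure MovedExp (A : Subgroup (MulAut X)) (B W : Subgroup X) (α : MulAut X) (c d : ℕ) : Prop where
  base : MovedData A B W α
  cd : c = 2 * d
  exp : ∀ b ∈ B, b ^ c * b ^ c = 1
  ne : ∃ b ∈ B, b ^ c ≠ 1

namespace MovedExp

variable {c d : ℕ}

theorem pi_mem (h : MovedExp A B W α c d) {b : X} (hb : b ∈ B) : b ^ c ∈ W :=
  (h.base.memW _).2 ⟨pow_mem hb c, h.exp b hb⟩

theorem comm_square [Finite X] (h : MovedExp A B W α c d) (x : X) {b : X} (hb : b ∈ B) :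
    ∃ e ∈ B, ⁅x, b⁆ = e * e := by
  refine h.base.pow_ker h.exp h.ne (h.base.comm_mem x hb) ?_
  rw [← h.base.comm_pow_right x hb]
  exact h.base.comm_W x (h.pi_mem hb)

theorem mu_mem (h : MovedExp A B W α c d) (x : X) {b : X} (hb : b ∈ B) : ⁅x, b⁆ ^ d ∈ W := by
  refine (h.base.memW _).2 ⟨pow_mem (h.base.comm_mem x hb) d, ?_⟩
  rw [← pow_add, ← two_mul, ← h.cd, ← h.base.comm_pow_right x hb]
  exact h.base.comm_W x (h.pi_mem hb)

theorem mu_congr [Finite X] (h : MovedExp A B W α c d) (x : X) {b b' : X} (hb : b ∈ B) (hb' : b' ∈ B)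
    (he : b ^ c = b' ^ c) : ⁅x, b⁆ ^ d = ⁅x, b'⁆ ^ d := by
  obtain ⟨e, heB, hee⟩ := h.base.pow_ker h.exp h.ne (B.mul_mem (B.inv_mem hb) hb') (by
    rw [h.base.mul_pow' (B.inv_mem hb) hb', inv_pow, he, inv_mul_cancel])
  have hb2 : b' = b * (e * e) := by rw [← hee]; group
  rw [hb2, h.base.comm_mul_right x hb (B.mul_mem heB heB), h.base.comm_mul_right x heB heB,
    h.base.mul_pow' (h.base.comm_mem x hb) (B.mul_mem (h.base.comm_mem x heB) (h.base.comm_mem x heB)),
    h.base.mul_pow' (h.base.comm_mem x heB) (h.base.comm_mem x heB),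
    h.base.sq_one (h.mu_mem x heB), mul_one]

open Classical in
/-- A preimage under the power map. -/
noncomputable def pick (B : Subgroup X) (c : ℕ) (w : X) : X :=
  if hw : ∃ b ∈ B, b ^ c = w then hw.choose else 1

theorem pick_spec (h : MovedExp A B W α c d) {w : X} (hw : w ∈ W) :
    pick B c w ∈ B ∧ pick B c w ^ c = w := by
  have e : ∃ b ∈ B, b ^ c = w := h.base.pow_surj h.exp h.ne w hw
  rw [pick, dif_pos e]
  exact e.choose_spec

/-- The family of endomorphisms of `W` given by commutation. -/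
noncomputable def mfun (B : Subgroup X) (c d : ℕ) (x w : X) : X := ⁅x, pick B c w⁆ ^ d

theorem mfun_eq [Finite X] (h : MovedExp A B W α c d) (x : X) {b : X} (hb : b ∈ B) :
    mfun B c d x (b ^ c) = ⁅x, b⁆ ^ d :=
  h.mu_congr x (h.pick_spec (h.pi_mem hb)).1 hb (h.pick_spec (h.pi_mem hb)).2

theorem mfun_mul [Finite X] (h : MovedExp A B W α c d) (x y : X) {w : X} (hw : w ∈ W) :
    mfun B c d (x * y) w = mfun B c d x w * mfun B c d y w := by
  obtain ⟨hb, he⟩ := h.pick_spec hw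
  unfold mfun
  rw [MovedData.comm_mul_left, h.base.mul_pow' (h.base.bn.conj_mem _ (h.base.comm_mem y hb) x)
    (h.base.comm_mem x hb), conj_pow, h.base.cyc.comm (h.mu_mem y hb) x, mul_inv_cancel_right,
    h.base.cyc.comm (h.mu_mem x hb)]

theorem mfun_equiv [Finite X] (h : MovedExp A B W α c d) {φ : MulAut X} (hφ : φ ∈ A) (x : X) {w : X}
    (hw : w ∈ W) : mfun B c d (φ x) (φ w) = φ (mfun B c d x w) := by
  obtain ⟨hb, he⟩ := h.pick_spec hw
  have e : φ w = φ (pick B c w) ^ c := by rw [← map_pow, he]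
  rw [e, h.mfun_eq (φ x) (h.base.bi φ hφ _ hb), ← map_commutatorElement, ← map_pow]
  rfl

theorem family [Finite X] (h : MovedExp A B W α c d) : EndFamily W α ⊤ (mfun B c d) where
  mem x _ w hw := h.mu_mem x (h.pick_spec hw).1
  left x _ y _ w hw := h.mfun_mul x y hw
  right x _ v hv w hw := by
    obtain ⟨hb, he⟩ := h.pick_spec hv
    obtain ⟨hb', he'⟩ := h.pick_spec hw
    have e : v * w = (pick B c v * pick B c w) ^ c := by rw [h.base.mul_pow' hb hb', he, he']
    rw [e, h.mfun_eq x (B.mul_mem hb hb'), h.base.comm_mul_right x hb hb',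
      h.base.mul_pow' (h.base.comm_mem x hb) (h.base.comm_mem x hb')]
    rfl
  invL _ _ := mem_top _
  equiv x _ w hw := h.mfun_equiv h.base.αA x hw

/-- The orbit product vanishes, as the group is generated by displacements. -/
theorem orbit_eq_one [Finite X] (h : MovedExp A B W α c d)
    (hXA : Subgroup.closure {g : X | ∃ φ ∈ A, ∃ x : X, g = x⁻¹ * φ x} = ⊤) (x : X) {w : X}
    (hw : w ∈ W) : orbitProd α (mfun B c d) x w = 1 := by
  have hm := h.family
  have hc := h.base.cyc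
  have horb1 : ∀ {v : X}, v ∈ W → orbitProd α (mfun B c d) 1 v = 1 := fun {v} hv => by
    have := hm.orbit_left hc (mem_top (1 : X)) (mem_top (1 : X)) hv
    rw [one_mul] at this
    exact left_eq_mul.1 this
  have hinvφ : ∀ φ ∈ A, ∀ y : X, ∀ v ∈ W, orbitProd α (mfun B c d) (φ y) v = orbitProd α (mfun B c d) y v := by
    intro φ hφ y v hv
    obtain ⟨q, hq, hq1⟩ : ∃ q ∈ W, q ≠ 1 := by
      by_contra hn
      push Not at hn
      have : W = ⊥ := (Subgroup.eq_bot_iff_forall W).2 hn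
      have h4 := h.base.card
      rw [this, Subgroup.card_bot] at h4
      omega
    have key : ∀ ψ ∈ A, ψ q = φ q → ∀ u ∈ W, ψ u = φ u := by
      intro ψ hψ he u hu
      have h1 : φ⁻¹ * ψ ∈ A := A.mul_mem (A.inv_mem hφ) hψ
      have h2 : (φ⁻¹ * ψ) q = q := by rw [MulAut.mul_apply, he]; exact φ.symm_apply_apply q
      rcases h.base.dich _ h1 with hf | hf
      · have := congrArg φ (hf u hu)
        rw [MulAut.mul_apply] at this
        exact (φ.apply_symm_apply _).symm.trans this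
      · exact absurd (hf q hq h2) hq1
    have same : ∀ ψ ∈ A, ψ q = φ q → orbitProd α (mfun B c d) (φ y) v = orbitProd α (mfun B c d) (ψ y) v := by
      intro ψ hψ he
      have hag := key ψ hψ he
      have hmm : ∀ u ∈ W, mfun B c d (φ y) u = mfun B c d (ψ y) u := by
        intro u hu
        have hu' : φ.symm u ∈ W := h.base.wi _ (A.inv_mem hφ) u hu
        have e1 := h.mfun_equiv hφ y hu'
        have e2 := h.mfun_equiv hψ y hu'
        rw [hag _ hu', MulEquiv.apply_symm_apply, hag _ (hm.mem y (mem_top y) _ hu')] at e2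
        rw [MulEquiv.apply_symm_apply] at e1
        rw [e1, e2]
      rw [orbitProd, orbitProd, hmm v hv, hmm _ (hc.inv v hv), hmm _ (hc.inv _ (hc.inv v hv))]
    rcases hc.all q hq hq1 (φ q) (h.base.wi φ hφ q hq) with e | e | e | e
    · exact absurd (φ.injective (e.trans (map_one φ).symm)) hq1
    · exact (same 1 A.one_mem (by rw [e, MulAut.one_apply])).trans (by rw [MulAut.one_apply])
    · exact (same α h.base.αA e.symm).trans (hm.orbit_invariant hc (mem_top y) hv)
    · refine (same (α * α) (A.mul_mem h.base.αA h.base.αA) (by rw [e, MulAut.mul_apply])).trans ?_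
      rw [MulAut.mul_apply, hm.orbit_invariant hc (mem_top (α y)) hv, hm.orbit_invariant hc (mem_top y) hv]
  let K : Subgroup X :=
    { carrier := {y | ∀ v ∈ W, orbitProd α (mfun B c d) y v = 1}
      one_mem' := fun v hv => horb1 hv
      mul_mem' := fun {a b} ha hb v hv => by
        rw [hm.orbit_left hc (mem_top a) (mem_top b) hv, ha v hv, hb v hv, one_mul]
      inv_mem' := fun {a} ha v hv => by
        have := hm.orbit_left hc (mem_top a⁻¹) (mem_top a) hv
        rw [inv_mul_cancel, horb1 hv, ha v hv, mul_one] at this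
        exact this.symm }
  have hK : Subgroup.closure {g : X | ∃ φ ∈ A, ∃ x : X, g = x⁻¹ * φ x} ≤ K := by
    rw [closure_le]
    rintro g ⟨φ, hφ, y, rfl⟩ v hv
    rw [hm.orbit_left hc (mem_top y⁻¹) (mem_top (φ y)) hv, hinvφ φ hφ y v hv,
      ← hm.orbit_left hc (mem_top y⁻¹) (mem_top y) hv, inv_mul_cancel]
    exact horb1 hv
  rw [hXA] at hK
  exact hK (mem_top x) w hw

/-- A member is zero or injective. -/
theorem zero_or_inj [Finite X] (h : MovedExp A B W α c d)
    (hXA : Subgroup.closure {g : X | ∃ φ ∈ A, ∃ x : X, g = x⁻¹ * φ x} = ⊤) (x : X) :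
    (∀ w ∈ W, mfun B c d x w = 1) ∨ ∀ w ∈ W, mfun B c d x w = 1 → w = 1 := by
  refine or_iff_not_imp_right.2 fun hn => ?_
  push Not at hn
  obtain ⟨w, hw, h1, hw1⟩ := hn
  exact h.family.eq_one_of_orbit h.base.cyc (mem_top x) (fun v hv => h.orbit_eq_one hXA x hv) hw hw1 h1

end MovedExp

end Cfsg.Agent.Lib.OddAutTwo
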