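import Mathlib
import Cfsg.Agent.Lib.OddAutTwo.Moved

/-! The moved subgroup is self-centralizing when its exponent is at least four. -/

set_option autoImplicit false

namespace Cfsg.Agent.Lib.OddAutTwo

open Subgroup Cfsg
open scoped commutatorElement

variable {X : Type*} [Group X] [Finite X] {A : Subgroup (MulAut X)} {B W : Subgroup X} {α : MulAut X} {c d : ℕ}

theorem MovedExp.self_centralizing (h : MovedExp A B W α c d) (hX : IsPGroup 2 X) {x : X}
    (hxB : ∀ b ∈ B, ⁅x, b⁆ = 1) : x ∈ B := by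
  have hb := h.base
  haveI := hb.bn
  haveI : IsMulCommutative B := hb.bc
  set C := centralizer (B : Set X)
  haveI : C.Normal := inferInstance
  have memC : ∀ {y : X}, y ∈ C ↔ ∀ b ∈ B, y * b = b * y := fun {y} => by
    rw [mem_centralizer_iff]; exact ⟨fun e b hb' => (e b hb').symm, fun e b hb' => (e b hb').symm⟩
  by_contra hxB'
  have hBC : B ≤ C := fun y hy => memC.2 fun b hb' => hb.comm hy hb'
  have hne : ¬ C ≤ B := fun hle => hxB' (hle (memC.2 fun b hb' =>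
    commutatorElement_eq_one_iff_mul_comm.1 (hxB b hb')))
  obtain ⟨x₀, hx₀C, hx₀B, hx₀2, hx₀c⟩ := exists_center_mod hX hBC hne
  -- `⁅g, y⁆ ∈ W` for `g ∈ C` and `y` central modulo `B` with square in `B`
  have hcW : ∀ g ∈ C, ∀ y ∈ C, y * y ∈ B → ⁅g, y⁆ ∈ B → ⁅g, y⁆ ∈ W := by
    intro g hg y hy hyy hgy
    refine (hb.memW _).2 ⟨hgy, ?_⟩
    have h1 : ⁅g, y * y⁆ = 1 := commutatorElement_eq_one_iff_mul_comm.2 (memC.1 hg _ hyy)
    calc ⁅g, y⁆ * ⁅g, y⁆ = ⁅g, y⁆ * (y * ⁅g, y⁆ * y⁻¹) := by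
          rw [memC.1 hy _ hgy, mul_inv_cancel_right]
      _ = ⁅g, y * y⁆ := by simp [commutatorElement_def, mul_assoc]
      _ = 1 := h1
  have hcomp : ∀ g x y : X, ⁅g, x * y⁆ = ⁅g, x⁆ * (x * ⁅g, y⁆ * x⁻¹) := fun g x y => by
    simp [commutatorElement_def, mul_assoc]
  let Y : Subgroup X :=
    { carrier := {y | y ∈ C ∧ y * y ∈ B ∧ ∀ g : X, ⁅g, y⁆ ∈ B}
      one_mem' := ⟨C.one_mem, by rw [mul_one]; exact B.one_mem, fun g => by
        rw [commutatorElement_one_right]; exact B.one_mem⟩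
      mul_mem' := by
        rintro a b ⟨ha, ha2, hac⟩ ⟨hb', hb2, hbc⟩
        refine ⟨C.mul_mem ha hb', ?_, fun g => ?_⟩
        · have : a * b * (a * b) = a * a * ⁅a⁻¹, b⁆ * (b * b) := by simp [commutatorElement_def, mul_assoc]
          rw [this]
          exact B.mul_mem (B.mul_mem ha2 (hbc a⁻¹)) hb2
        · rw [hcomp]
          exact B.mul_mem (hac g) (hb.bn.conj_mem _ (hbc g) a)
      inv_mem' := by
        rintro a ⟨ha, ha2, hac⟩
        refine ⟨C.inv_mem ha, by rw [← mul_inv_rev]; exact B.inv_mem ha2, fun g => ?_⟩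
        have : ⁅g, a⁻¹⁆ = a⁻¹ * (⁅g, a⁆)⁻¹ * a⁻¹⁻¹ := by simp [commutatorElement_def, mul_assoc]
        rw [this]
        exact hb.bn.conj_mem _ (B.inv_mem (hac g)) _ }
  have memY : ∀ {y : X}, y ∈ Y ↔ y ∈ C ∧ y * y ∈ B ∧ ∀ g : X, ⁅g, y⁆ ∈ B := Iff.rfl
  have hBY : B ≤ Y := fun y hy => ⟨hBC hy, B.mul_mem hy hy, fun g => hb.comm_mem g hy⟩
  have hYn : Y.Normal := ⟨fun y hy g => by
    have h1 : g * y * g⁻¹ = ⁅g, y⁆ * y := by simp [commutatorElement_def]
    rw [h1]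
    exact Y.mul_mem (hBY (hy.2.2 g)) hy⟩
  have hYi : Inv A Y := by
    intro φ hφ y hy
    refine ⟨memC.2 fun b hb' => ?_, by rw [← map_mul]; exact hb.bi φ hφ _ hy.2.1, fun g => ?_⟩
    · have := congrArg φ (memC.1 hy.1 _ (hb.bi _ (A.inv_mem hφ) b hb'))
      rw [map_mul, map_mul] at this
      simpa using this
    · have := hb.bi φ hφ _ (hy.2.2 (φ.symm g))
      rwa [map_commutatorElement, MulEquiv.apply_symm_apply] at this
  -- the squaring map into `W`
  let q : X → X := fun y => (y * y) ^ c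
  have hqW : ∀ {y : X}, y ∈ Y → q y ∈ W := fun {y} hy => h.pi_mem hy.2.1
  have hc1 : ∀ {k : X}, k ∈ W → k ^ c = 1 := fun {k} hk => by
    rw [h.cd, pow_mul, pow_two, hb.sq_one hk, one_pow]
  have hqmul : ∀ {a b : X}, a ∈ Y → b ∈ Y → q (a * b) = q a * q b := by
    intro a b ha hb'
    have e : a * b * (a * b) = a * a * ⁅a⁻¹, b⁆ * (b * b) := by simp [commutatorElement_def, mul_assoc]
    have hk := hcW a⁻¹ (C.inv_mem ha.1) b hb'.1 hb'.2.1 (hb'.2.2 a⁻¹)
    show (a * b * (a * b)) ^ c = (a * a) ^ c * (b * b) ^ c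
    rw [e, hb.mul_pow' (B.mul_mem ha.2.1 (hb.mem_B hk)) hb'.2.1, hb.mul_pow' ha.2.1 (hb.mem_B hk), hc1 hk,
      mul_one]
  have hqα : ∀ {y : X}, q (α y) = α (q y) := fun {y} => by simp [q]
  have hqker : ∀ {y : X}, y ∈ Y → q y = 1 → y ∈ B := by
    intro y hy hq
    obtain ⟨e, he, hee⟩ := hb.pow_ker h.exp h.ne hy.2.1 hq
    set t := y * e⁻¹ with ht
    have htY : t ∈ Y := Y.mul_mem hy (hBY (B.inv_mem he))
    have htt : t * t = 1 := by
      calc t * t = y * (e⁻¹ * y) * e⁻¹ := by rw [ht]; simp only [mul_assoc]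
        _ = y * (y * e⁻¹) * e⁻¹ := by rw [← memC.1 hy.1 _ (B.inv_mem he)]
        _ = y * y * (e * e)⁻¹ := by simp [mul_assoc]
        _ = 1 := by rw [hee, mul_inv_cancel]
    have htW : t ∈ W := by
      refine hb.noExt t htt fun g => (hb.memW _).2 ⟨htY.2.2 g, ?_⟩
      have hkt := memC.1 htY.1 _ (htY.2.2 g)
      set k := ⁅g, t⁆ with hk
      have h2 : (k * t) * (k * t) = 1 := by
        rw [hk, commutatorElement_def, inv_mul_cancel_right]
        calc g * t * g⁻¹ * (g * t * g⁻¹) = g * (t * t) * g⁻¹ := by group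
          _ = 1 := by rw [htt, mul_one, mul_inv_cancel]
      calc k * k = k * (k * (t * t)) := by rw [htt, mul_one]
        _ = k * ((k * t) * t) := by rw [mul_assoc k t t]
        _ = k * (t * k * t) := by rw [hkt]
        _ = (k * t) * (k * t) := by simp only [mul_assoc]
        _ = 1 := h2
    have : y = t * e := by rw [ht]; simp
    rw [this]
    exact B.mul_mem (hb.mem_B htW) he
  have hqinv : ∀ {a b : X}, a ∈ Y → b ∈ Y → q a = q b → a⁻¹ * b ∈ B := by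
    intro a b ha hb' he
    refine hqker (Y.mul_mem (Y.inv_mem ha) hb') ?_
    have h1 := hqmul ha (Y.mul_mem (Y.inv_mem ha) hb')
    rw [mul_inv_cancel_left, he] at h1
    exact left_eq_mul.1 h1
  have hnc : ∃ m ∈ Y, ∃ n ∈ Y, ⁅m, n⁆ ≠ 1 := by
    by_contra hn
    push Not at hn
    have : IsMulCommutative Y := ⟨⟨fun a b => Subtype.ext
      (commutatorElement_eq_one_iff_mul_comm.1 (hn a a.2 b b.2))⟩⟩
    exact hx₀B (hb.bmax Y hYn hYi this hBY ⟨hx₀C, hx₀2, hx₀c⟩)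
  obtain ⟨m, hm, n, hn, hmn⟩ := hnc
  have hright : ∀ {u v e : X}, u ∈ Y → e ∈ B → ⁅u, v * e⁆ = ⁅u, v⁆ := by
    intro u v e hu he
    rw [hcomp, commutatorElement_eq_one_iff_mul_comm.2 (memC.1 hu.1 e he)]
    simp
  have hqm : q m ≠ 1 := fun e => hmn (commutatorElement_eq_one_iff_mul_comm.2
    (memC.1 hn.1 m (hqker hm e)).symm)
  have hαm : α m ∈ Y := hYi α hb.αA m hm
  have hααm : α (α m) ∈ Y := hYi α hb.αA _ hαm
  have hq2 : q (m * α m) = q (α (α m)) := by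
    rw [hqmul hm hαm, hqα, hqα, hqα]
    have hp := hb.cyc.prod _ (hqW hm)
    rw [eq_inv_of_mul_eq_one_left hp]
    exact inv_eq_of_mul_eq_one_left (hb.sq_one (hb.wi α hb.αA _ (hb.wi α hb.αA _ (hqW hm))))
  obtain ⟨e, he, heq⟩ : ∃ e ∈ B, α (α m) = m * α m * e :=
    ⟨(m * α m)⁻¹ * α (α m), hqinv (Y.mul_mem hm hαm) hααm hq2, by group⟩
  have hself : ∀ u v : X, ⁅u, u * v⁆ = u * ⁅u, v⁆ * u⁻¹ := fun u v => by simp [commutatorElement_def, mul_assoc]
  have hkB : ⁅m, α m⁆ ∈ B := hαm.2.2 m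
  have hα2 : ⁅m, α (α m)⁆ = ⁅m, α m⁆ := by
    rw [heq, hright hm he, hself, memC.1 hm.1 _ hkB, mul_inv_cancel_right]
  have hk : ⁅m, α m⁆ ≠ 1 := by
    have red : ∀ {u : X}, u ∈ Y → q n = q u → ⁅m, n⁆ = ⁅m, u⁆ := by
      intro u hu he'
      have hB' := hqinv hu hn he'.symm
      rw [show n = u * (u⁻¹ * n) by group, hright hm hB']
    rcases hb.cyc.all (q m) (hqW hm) hqm (q n) (hqW hn) with e1 | e1 | e1 | e1
    · exact absurd (commutatorElement_eq_one_iff_mul_comm.2 (memC.1 hm.1 n (hqker hn e1))) hmn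
    · exact absurd (by rw [red hm e1, commutatorElement_self]) hmn
    · rw [← red hαm (e1.trans hqα.symm)]; exact hmn
    · rw [← hα2, ← red hααm (e1.trans (by rw [hqα, hqα]))]; exact hmn
  have hkW : ⁅m, α m⁆ ∈ W := hcW m hm.1 (α m) hαm.1 hαm.2.1 hkB
  refine hk (hb.cyc.fix _ hkW ?_)
  rw [map_commutatorElement, heq, hright hαm he, hcomp, commutatorElement_self, mul_one, mul_inv_cancel,
    mul_one, ← commutatorElement_inv, inv_eq_of_mul_eq_one_left (hb.sq_one hkW)]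

end Cfsg.Agent.Lib.OddAutTwo
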