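import Mathlib
import Cfsg.Agent.Lib.OddAutTwo.Basic

/-! Squares and commutators in a group whose squares and commutators lie in an elementary centre. -/

set_option autoImplicit false

namespace Cfsg.Agent.Lib.OddAutTwo

open Subgroup Cfsg
open scoped commutatorElement

variable {X : Type*} [Group X]

/-- Squares and commutators are central of order dividing two. -/
structure SqCentral (X : Type*) [Group X] : Prop where
  comm_mem : ∀ x y : X, ⁅x, y⁆ ∈ center X
  sq_mem : ∀ x : X, x * x ∈ center X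
  cen_sq : ∀ z ∈ center X, z * z = 1

namespace SqCentral

variable (h : SqCentral X)
include h

theorem comm_right (g x y : X) : ⁅g, x * y⁆ = ⁅g, x⁆ * ⁅g, y⁆ := by
  calc ⁅g, x * y⁆ = ⁅g, x⁆ * (x * ⁅g, y⁆ * x⁻¹) := by simp [commutatorElement_def, mul_assoc]
    _ = _ := by rw [mem_center_iff.1 (h.comm_mem g y) x, mul_inv_cancel_right]

theorem comm_symm (x y : X) : ⁅x, y⁆ = ⁅y, x⁆ := by
  rw [← commutatorElement_inv]
  exact inv_eq_of_mul_eq_one_left (h.cen_sq _ (h.comm_mem y x))

theorem comm_left (x y g : X) : ⁅x * y, g⁆ = ⁅x, g⁆ * ⁅y, g⁆ := by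
  rw [h.comm_symm, h.comm_right, h.comm_symm g x, h.comm_symm g y]

theorem sq_mul (u v : X) : u * v * (u * v) = ⁅v, u⁆ * (u * u * (v * v)) := by
  calc u * v * (u * v) = u * ⁅v, u⁆ * (u * (v * v)) := by simp [commutatorElement_def, mul_assoc]
    _ = _ := by rw [mem_center_iff.1 (h.comm_mem v u) u]; simp [mul_assoc]

/-- The elements whose commutators with `x` lie in `L`. -/
def centMod (L : Subgroup X) (x : X) : Subgroup X where
  carrier := {g | ⁅g, x⁆ ∈ L}
  one_mem' := by
    show ⁅(1 : X), x⁆ ∈ L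
    rw [commutatorElement_one_left]; exact L.one_mem
  mul_mem' := fun {a b} ha hb => by
    show ⁅a * b, x⁆ ∈ L
    rw [h.comm_left]; exact L.mul_mem ha hb
  inv_mem' := fun {a} ha => by
    show ⁅a⁻¹, x⁆ ∈ L
    have e := h.comm_left a⁻¹ a x
    rw [inv_mul_cancel, commutatorElement_one_left] at e
    rw [eq_inv_of_mul_eq_one_left e.symm]
    exact L.inv_mem ha

theorem mem_centMod {L : Subgroup X} {x g : X} : g ∈ h.centMod L x ↔ ⁅g, x⁆ ∈ L := Iff.rfl

theorem center_le_centMod (L : Subgroup X) (x : X) : center X ≤ h.centMod L x := fun z hz => by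
  rw [mem_centMod, commutatorElement_eq_one_iff_mul_comm.2 (mem_center_iff.1 hz x).symm]
  exact L.one_mem

theorem centMod_bot (x : X) : h.centMod ⊥ x = centralizer ({x} : Set X) := by
  ext g
  rw [mem_centMod, mem_bot, mem_centralizer_singleton_iff, commutatorElement_eq_one_iff_mul_comm]

/-- The subgroup generated by the centre and one element. -/
def span (x : X) : Subgroup X where
  carrier := {y | y ∈ center X ∨ x⁻¹ * y ∈ center X}
  one_mem' := Or.inl (one_mem _)
  mul_mem' := by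
    rintro a b (ha | ha) (hb | hb)
    · exact Or.inl (mul_mem ha hb)
    · refine Or.inr ?_
      have : x⁻¹ * (a * b) = a * (x⁻¹ * b) := by
        rw [← mul_assoc, mem_center_iff.1 ha x⁻¹, mul_assoc]
      rw [this]; exact mul_mem ha hb
    · exact Or.inr (by rw [← mul_assoc]; exact mul_mem ha hb)
    · refine Or.inl ?_
      have : a * b = x⁻¹ * a * (x * x * (x⁻¹ * b)) := by
        calc a * b = x * (x⁻¹ * a) * (x * (x⁻¹ * b)) := by simp [mul_assoc]
          _ = x⁻¹ * a * x * (x * (x⁻¹ * b)) := by rw [mem_center_iff.1 ha x]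
          _ = _ := by simp [mul_assoc]
      rw [this]; exact mul_mem ha (mul_mem (h.sq_mem x) hb)
  inv_mem' := by
    rintro a (ha | ha)
    · exact Or.inl (inv_mem ha)
    · refine Or.inr ?_
      have : x⁻¹ * a⁻¹ = (x * x)⁻¹ * (x⁻¹ * a)⁻¹ := by
        calc x⁻¹ * a⁻¹ = x⁻¹ * ((x⁻¹ * a)⁻¹ * x⁻¹) := by simp
          _ = x⁻¹ * (x⁻¹ * (x⁻¹ * a)⁻¹) := by rw [← mem_center_iff.1 (inv_mem ha) x⁻¹]
          _ = _ := by simp [mul_assoc]
      rw [this]; exact mul_mem (inv_mem (h.sq_mem x)) (inv_mem ha)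

theorem mem_span {x y : X} : y ∈ h.span x ↔ y ∈ center X ∨ x⁻¹ * y ∈ center X := Iff.rfl

theorem self_mem_span (x : X) : x ∈ h.span x := Or.inr (by rw [inv_mul_cancel]; exact one_mem _)

theorem center_le_span (x : X) : center X ≤ h.span x := fun _ hz => Or.inl hz

theorem span_card [Finite X] (x : X) : Nat.card (h.span x) ≤ 2 * Nat.card (center X) := by
  have e : ((h.span x : Subgroup X) : Set X) ⊆ (center X : Set X) ∪ (fun z => x * z) '' (center X : Set X) := by
    rintro y (hy | hy)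
    · exact Or.inl hy
    · exact Or.inr ⟨x⁻¹ * y, hy, by simp⟩
  have h1 := Set.ncard_le_ncard e
  have h2 := Set.ncard_union_le (center X : Set X) ((fun z => x * z) '' (center X : Set X))
  have h3 := Set.ncard_image_le (f := fun z => x * z) (s := (center X : Set X))
  have ec : ∀ S : Subgroup X, Nat.card S = (S : Set X).ncard := fun S => (Nat.card_coe_set_eq _)
  rw [ec, ec]
  omega

/-- The number of elements whose commutator with `x` lies in `L`. -/
theorem card_centMod_ge [Finite X] (L : Subgroup X) (x : X) {T : Subgroup X}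
    (hT : ∀ g : X, ⁅g, x⁆ ∈ T) : Nat.card X ≤ Nat.card (h.centMod L x) * Nat.card T := by
  let f : X →* T := MonoidHom.mk' (fun g => ⟨⁅g, x⁆, hT g⟩) fun a b => Subtype.ext (h.comm_left a b x)
  have hker : f.ker ≤ h.centMod L x := fun g hg => by
    rw [mem_centMod, show ⁅g, x⁆ = 1 from congrArg Subtype.val hg]; exact L.one_mem
  calc Nat.card X = Nat.card f.ker * f.ker.index := f.ker.card_mul_index.symm
    _ ≤ Nat.card (h.centMod L x) * Nat.card T := by
      rw [Subgroup.index_ker]
      exact Nat.mul_le_mul (card_le_of_le hker) (Subgroup.card_le_card_group _)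

/-- The conditions for `L` to have index two in the centre. -/
theorem index_two [Finite X] {L : Subgroup X} (hL : L ≤ center X)
    (hc : Nat.card (center X) = 2 * Nat.card L) {a b : X} (ha : a ∈ center X) (hb : b ∈ center X)
    (haL : a ∉ L) (hbL : b ∉ L) : a * b ∈ L := by
  have hidx : (L.subgroupOf (center X)).index = 2 := by
    have e := (L.subgroupOf (center X)).card_mul_index
    rw [Nat.card_congr (Subgroup.subgroupOfEquivOfLe hL).toEquiv, hc, mul_comm] at e
    exact Nat.eq_of_mul_eq_mul_right Nat.card_pos e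
  have := Subgroup.mul_mem_iff_of_index_two hidx (a := ⟨a, ha⟩) (b := ⟨b, hb⟩)
  simp only [mem_subgroupOf, Subgroup.coe_mul] at this
  exact this.2 ⟨fun h' => absurd h' haL, fun h' => absurd h' hbL⟩

/-- Three independent elements: some product has square in `L`. -/
theorem exists_sq_mem [Finite X] {L : Subgroup X} (hL : L ≤ center X)
    (hc : Nat.card (center X) = 2 * Nat.card L) {C K : Subgroup X} (hZK : center X ≤ K) (hKC : K ≤ C)
    (hcard : 8 * Nat.card K ≤ Nat.card C) : ∃ y ∈ C, y ∉ K ∧ y * y ∈ L := by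
  classical
  by_contra hn
  push Not at hn
  have hsK : ∀ x : X, x * x ∈ K := fun x => hZK (h.sq_mem x)
  have pick : ∀ S : Finset X, S.card ≤ 4 → ∃ c ∈ C, ∀ r ∈ S, r⁻¹ * c ∉ K := by
    intro S hS
    by_contra hc'
    push Not at hc'
    have hsub : (C : Set X) ⊆ ⋃ r ∈ S, (fun k => r * k) '' (K : Set X) := fun c hc1 => by
      obtain ⟨r, hr, hrk⟩ := hc' c hc1
      exact Set.mem_biUnion hr ⟨r⁻¹ * c, hrk, by simp⟩
    have h1 := Set.ncard_le_ncard hsub
    have h2 := S.set_ncard_biUnion_le fun r => (fun k => r * k) '' (K : Set X)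
    have h3 : ∑ r ∈ S, ((fun k => r * k) '' (K : Set X)).ncard ≤ S.card * (K : Set X).ncard := by
      refine (Finset.sum_le_card_nsmul _ _ _ fun r _ => Set.ncard_image_le).trans_eq ?_
      rw [smul_eq_mul]
    have ec : ∀ S : Subgroup X, Nat.card S = (S : Set X).ncard := fun S => (Nat.card_coe_set_eq _)
    rw [ec, ec] at hcard
    have hpos : 0 < (K : Set X).ncard := by rw [← ec]; exact Nat.card_pos
    have : S.card * (K : Set X).ncard ≤ 4 * (K : Set X).ncard := Nat.mul_le_mul_right _ hS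
    omega
  have shift : ∀ {x y : X}, x⁻¹ * y ∉ K → x * y ∉ K := fun {x y} hxy hm => hxy (by
    have := K.mul_mem (K.inv_mem (hsK x)) hm
    simpa [mul_assoc] using this)
  obtain ⟨u, hu, hu'⟩ := pick {1} (by simp)
  obtain ⟨v, hv, hv'⟩ := pick {1, u} ((Finset.card_le_two).trans (by omega))
  obtain ⟨w, hw, hw'⟩ := pick {1, u, v, u * v} Finset.card_le_four
  have huK : u ∉ K := by simpa using hu' 1 (by simp)
  have hvK : v ∉ K := by simpa using hv' 1 (by simp)
  have hwK : w ∉ K := by simpa using hw' 1 (by simp)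
  have huvK : u * v ∉ K := shift (hv' u (by simp))
  have huwK : u * w ∉ K := shift (hw' u (by simp))
  have hvwK : v * w ∉ K := shift (hw' v (by simp))
  have huvwK : u * v * w ∉ K := shift (hw' (u * v) (by simp))
  have two : ∀ a b : X, a ∈ C → b ∈ C → a ∉ K → b ∉ K → a * b ∉ K → ⁅b, a⁆ ∉ L := by
    intro a b ha hb haK hbK habK hk
    refine hn _ (C.mul_mem ha hb) habK ?_
    rw [h.sq_mul]
    exact L.mul_mem hk (index_two h hL hc (h.sq_mem a) (h.sq_mem b) (hn a ha haK) (hn b hb hbK))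
  refine hn _ (C.mul_mem (C.mul_mem hu hv) hw) huvwK ?_
  rw [h.sq_mul, h.comm_right]
  exact L.mul_mem
    (index_two h hL hc (h.comm_mem w u) (h.comm_mem w v) (two u w hu hw huK hwK huwK) (two v w hv hw hvK hwK hvwK))
    (index_two h hL hc (h.sq_mem _) (h.sq_mem w) (hn _ (C.mul_mem hu hv) huvK) (hn w hw hwK))

/-- In a group of order `128` with centre of order four, some element has all commutators in `L`. -/
theorem exists_radical [Finite X] {L : Subgroup X} (hL : L ≤ center X)
    (hc : Nat.card (center X) = 2 * Nat.card L) (h4 : Nat.card (center X) = 4)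
    (hX : Nat.card X = 128) : ∃ s : X, s ∉ center X ∧ ∀ g : X, ⁅g, s⁆ ∈ L := by
  by_contra hn
  push Not at hn
  -- halving
  have half : ∀ (D : Subgroup X) (x : X), Nat.card D ≤ 2 * Nat.card (D ⊓ h.centMod L x : Subgroup X) := by
    intro D x
    have hidx : (h.centMod L x).index ≤ 2 := by
      rcases eq_or_ne (h.centMod L x) ⊤ with e | e
      · rw [e, index_top]; omega
      obtain ⟨a, ha⟩ : ∃ a, a ∉ h.centMod L x := by
        by_contra he
        push Not at he
        exact e (eq_top_iff.2 fun a _ => he a)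
      refine le_of_eq (index_eq_two_iff.2 ⟨a, fun b => ?_⟩)
      rw [mem_centMod] at ha
      simp only [mem_centMod, h.comm_left]
      by_cases hb : ⁅b, x⁆ ∈ L
      · exact Or.inr ⟨hb, fun h' => ha ((L.mul_mem_cancel_left hb).1 h')⟩
      · exact Or.inl ⟨index_two h hL hc (h.comm_mem b x) (h.comm_mem a x) hb ha, hb⟩
    have e := relIndex_inf_mul_relIndex (D ⊓ h.centMod L x) ⊤ D
    have h1 := card_mul_index ((D ⊓ h.centMod L x).subgroupOf D)
    rw [Nat.card_congr (Subgroup.subgroupOfEquivOfLe inf_le_left).toEquiv] at h1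
    have h2 : (D ⊓ h.centMod L x).relIndex D ≤ 2 := by
      rw [inf_relIndex_left]
      have h0 : ((h.centMod L x).subgroupOf ⊤).index ≠ 0 := index_ne_zero_of_finite
      calc (h.centMod L x).relIndex D ≤ (h.centMod L x).relIndex ⊤ :=
            relIndex_le_of_le_right le_top h0
        _ ≤ 2 := by rw [relIndex_top_right]; exact hidx
    calc Nat.card D = Nat.card (D ⊓ h.centMod L x : Subgroup X) * ((D ⊓ h.centMod L x).subgroupOf D).index := h1.symm
      _ ≤ Nat.card (D ⊓ h.centMod L x : Subgroup X) * 2 := Nat.mul_le_mul_left _ h2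
      _ = _ := mul_comm _ _
  have strict : ∀ {D E : Subgroup X}, E < D → 2 * Nat.card E ≤ Nat.card D := by
    intro D E hlt
    have h1 := card_mul_index (E.subgroupOf D)
    rw [Nat.card_congr (Subgroup.subgroupOfEquivOfLe hlt.le).toEquiv] at h1
    have h2 : (E.subgroupOf D).index ≠ 1 := fun e => hlt.not_ge (by
      rw [index_eq_one, subgroupOf_eq_top] at e; exact e)
    have h3 : 2 ≤ (E.subgroupOf D).index := by
      have : (E.subgroupOf D).index ≠ 0 := index_ne_zero_of_finite
      omega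
    rw [← h1, mul_comm 2]
    exact Nat.mul_le_mul_left _ h3
  have out : ∀ {D : Subgroup X}, 4 < Nat.card D → ∃ p ∈ D, p ∉ center X := by
    intro D hD
    by_contra he
    push Not at he
    have := card_le_of_le (show D ≤ center X from he)
    omega
  -- radical elements extend along a hyperbolic pair
  have extend : ∀ (D : Subgroup X) (u v s : X), u ∈ D → v ∈ D → ⁅u, v⁆ ∉ L →
      s ∈ D ⊓ h.centMod L u ⊓ h.centMod L v →
      (∀ g ∈ D ⊓ h.centMod L u ⊓ h.centMod L v, ⁅g, s⁆ ∈ L) → ∀ g ∈ D, ⁅g, s⁆ ∈ L := by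
    intro D u v s hu hv huv hs hrad g hg
    have hsu : ⁅u, s⁆ ∈ L := h.comm_symm s u ▸ hs.1.2
    have hsv : ⁅v, s⁆ ∈ L := h.comm_symm s v ▸ hs.2
    have huu : ⁅u, u⁆ ∈ L := by rw [commutatorElement_self]; exact L.one_mem
    have hvv : ⁅v, v⁆ ∈ L := by rw [commutatorElement_self]; exact L.one_mem
    have hvu : ⁅v, u⁆ ∉ L := h.comm_symm u v ▸ huv
    have idx := fun {a b : X} (ha : a ∈ center X) (hb : b ∈ center X) => index_two h hL hc ha hb
    have main : ∀ e ∈ D, ⁅e, s⁆ ∈ L → ⁅g * e, u⁆ ∈ L → ⁅g * e, v⁆ ∈ L → ⁅g, s⁆ ∈ L := by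
      intro e he hes h1 h2
      have := hrad (g * e) ⟨⟨D.mul_mem hg he, h1⟩, h2⟩
      rw [h.comm_left] at this
      exact (L.mul_mem_cancel_right hes).1 this
    by_cases h1 : ⁅g, u⁆ ∈ L <;> by_cases h2 : ⁅g, v⁆ ∈ L
    · exact main 1 D.one_mem (by rw [commutatorElement_one_left]; exact L.one_mem) (by rwa [mul_one])
        (by rwa [mul_one])
    · exact main u hu hsu (by rw [h.comm_left]; exact L.mul_mem h1 huu)
        (by rw [h.comm_left]; exact idx (h.comm_mem g v) (h.comm_mem u v) h2 huv)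
    · exact main v hv hsv (by rw [h.comm_left]; exact idx (h.comm_mem g u) (h.comm_mem v u) h1 hvu)
        (by rw [h.comm_left]; exact L.mul_mem h2 hvv)
    · refine main (u * v) (D.mul_mem hu hv) (by rw [h.comm_left]; exact L.mul_mem hsu hsv) ?_ ?_
      · rw [h.comm_left, h.comm_left, commutatorElement_self, one_mul]
        exact idx (h.comm_mem g u) (h.comm_mem v u) h1 hvu
      · rw [h.comm_left, h.comm_left, commutatorElement_self, mul_one]
        exact idx (h.comm_mem g v) (h.comm_mem u v) h2 huv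
  obtain ⟨u, -, huZ⟩ := out (D := ⊤) (by rw [card_top]; omega)
  obtain ⟨v, hvu⟩ := hn u huZ
  have huv : ⁅u, v⁆ ∉ L := h.comm_symm v u ▸ hvu
  set D₁ := (⊤ : Subgroup X) ⊓ h.centMod L u
  set D₂ := D₁ ⊓ h.centMod L v
  have c1 : 128 ≤ 2 * Nat.card D₁ := by
    have := half ⊤ u
    rw [card_top, hX] at this
    exact this
  have c2 := half D₁ v
  obtain ⟨p, hp, hpZ⟩ := out (D := D₂) (by show 4 < Nat.card (D₁ ⊓ h.centMod L v : Subgroup X); omega)
  obtain ⟨r, hr, hrp⟩ : ∃ r ∈ D₂, ⁅r, p⁆ ∉ L := by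
    by_contra he
    push Not at he
    obtain ⟨g, hg⟩ := hn p hpZ
    exact hg (extend ⊤ u v p (mem_top u) (mem_top v) huv hp he g (mem_top g))
  have hpr : ⁅p, r⁆ ∉ L := h.comm_symm r p ▸ hrp
  set D₃ := D₂ ⊓ h.centMod L p
  set D₄ := D₃ ⊓ h.centMod L r
  have c3 := half D₂ p
  have c4 := half D₃ r
  have c2' : 32 ≤ Nat.card D₂ := by show 32 ≤ Nat.card (D₁ ⊓ h.centMod L v : Subgroup X); omega
  have c3' : 16 ≤ Nat.card D₃ := by show 16 ≤ Nat.card (D₂ ⊓ h.centMod L p : Subgroup X); omega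
  obtain ⟨s, hs, hsZ⟩ := out (D := D₄) (by show 4 < Nat.card (D₃ ⊓ h.centMod L r : Subgroup X); omega)
  obtain ⟨w, hw, hws⟩ : ∃ w ∈ D₄, ⁅w, s⁆ ∉ L := by
    by_contra he
    push Not at he
    obtain ⟨g, hg⟩ := hn s hsZ
    exact hg (extend ⊤ u v s (mem_top u) (mem_top v) huv hs.1.1 (extend D₂ p r s hp hr hpr hs he) g (mem_top g))
  set D₅ := D₄ ⊓ h.centMod L s
  have s5 : 2 * Nat.card D₅ ≤ Nat.card D₄ := strict (lt_of_le_not_ge inf_le_left fun hle => hws (hle hw).2)
  have s4 : 2 * Nat.card D₄ ≤ Nat.card D₃ := strict (lt_of_le_not_ge inf_le_left fun hle =>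
    hpr (hle (show p ∈ D₃ from ⟨hp, by
      show ⁅_, _⁆ ∈ L
      rw [commutatorElement_self]; exact L.one_mem⟩)).2)
  have s3 : 2 * Nat.card D₃ ≤ Nat.card D₂ := strict (lt_of_le_not_ge inf_le_left fun hle => hrp (hle hr).2)
  have s2 : 2 * Nat.card D₂ ≤ Nat.card D₁ := strict (lt_of_le_not_ge inf_le_left fun hle =>
    huv (hle (show u ∈ D₁ from ⟨mem_top u, by
      show ⁅_, _⁆ ∈ L
      rw [commutatorElement_self]; exact L.one_mem⟩)).2)
  have s1 : 2 * Nat.card D₁ ≤ 128 := by
    have := strict (D := (⊤ : Subgroup X)) (E := D₁)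
      (lt_of_le_not_ge inf_le_left fun hle => hvu (hle (mem_top v)).2)
    rwa [card_top, hX] at this
  have hlow : 4 < Nat.card D₅ := by
    have hle : center X ≤ D₅ := le_inf (le_inf (le_inf (le_inf (le_inf le_top (h.center_le_centMod L u))
      (h.center_le_centMod L v)) (h.center_le_centMod L p)) (h.center_le_centMod L r)) (h.center_le_centMod L s)
    have hsD : s ∈ D₅ := ⟨hs, by
      show ⁅_, _⁆ ∈ L
      rw [commutatorElement_self]; exact L.one_mem⟩
    refine lt_of_le_of_ne (h4 ▸ card_le_of_le hle) fun e => hsZ ?_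
    rw [Subgroup.eq_of_le_of_card_ge hle (by omega)]
    exact hsD
  omega

end SqCentral

end Cfsg.Agent.Lib.OddAutTwo
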