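import Mathlib
import Cfsg.Agent.Lib.OddAutTwo.Centralizer

/-! The moved subgroup has exponent at most four. -/

set_option autoImplicit false

namespace Cfsg.Agent.Lib.OddAutTwo

open Subgroup Cfsg
open scoped commutatorElement

variable {X : Type*} [Group X] [Finite X] {A : Subgroup (MulAut X)} {B W : Subgroup X} {α : MulAut X} {c d : ℕ}

theorem exists_sq_in {L : Subgroup X} {B : Subgroup X} (hX : IsPGroup 2 X) {x : X} (hx : x ∈ L)
    (hxB : x ∉ B) : ∃ t ∈ L, t ∉ B ∧ t * t ∈ B := by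
  classical
  obtain ⟨k, hk⟩ := hX x
  have hex : ∃ j, x ^ 2 ^ j ∈ B := ⟨k, by rw [hk]; exact B.one_mem⟩
  have h0 : Nat.find hex ≠ 0 := fun h0 => hxB (by
    have := Nat.find_spec hex
    simpa [h0] using this)
  refine ⟨x ^ 2 ^ (Nat.find hex - 1), pow_mem hx _, Nat.find_min hex (by omega), ?_⟩
  rw [← pow_two, ← pow_mul, ← pow_succ, show Nat.find hex - 1 + 1 = Nat.find hex by omega]
  exact Nat.find_spec hex

theorem MovedData.comm_self (h : MovedData A B W α) {x b : X} (hb : b ∈ B) :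
    ⁅x * x, b⁆ = ⁅x, ⁅x, b⁆⁆ * ⁅x, b⁆ * ⁅x, b⁆ := by
  simp [commutatorElement_def, mul_assoc]

/-- Exponent four: squares lie in `W`. -/
theorem MovedExp.sq_mem_of_d_one (h : MovedExp A B W α c 1) (hX : IsPGroup 2 X)
    (hXA : Subgroup.closure {g : X | ∃ φ ∈ A, ∃ x : X, g = x⁻¹ * φ x} = ⊤) (x : X) : x * x ∈ W := by
  have hb := h.base
  have hc2 : c = 2 := h.cd
  subst hc2
  by_cases hxB : x ∈ B
  · refine (hb.memW _).2 ⟨B.mul_mem hxB hxB, ?_⟩
    have := h.exp x hxB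
    rwa [pow_two] at this
  have hDW : ∀ b ∈ B, ⁅x, b⁆ ∈ W := fun b hb' => by
    have := h.mu_mem x hb'
    rwa [pow_one] at this
  have hx2 : x * x ∈ B := h.self_centralizing hX fun b hb' => by
    rw [hb.comm_self hb', hb.comm_W x (hDW b hb'), one_mul, hb.sq_one (hDW b hb')]
  have hinj : ∀ w ∈ W, MovedExp.mfun B 2 1 x w = 1 → w = 1 := by
    refine (h.zero_or_inj hXA x).resolve_left fun h0 => hxB (h.self_centralizing hX fun b hb' => ?_)
    have := h0 _ (h.pi_mem hb')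
    rwa [h.mfun_eq x hb', pow_one] at this
  have h1 : (x * x) ^ 2 = 1 := hinj _ (h.pi_mem hx2) (by
    rw [h.mfun_eq x hx2, pow_one]; simp [commutatorElement_def, mul_assoc])
  exact (hb.memW _).2 ⟨hx2, by rw [← pow_two]; exact h1⟩

/-- With exponent `2 ^ a ≥ 8` there is a contradiction. -/
theorem MovedData.false_of_big (hb : MovedData A B W α) (hX : IsPGroup 2 X) (hna : ¬ IsMulCommutative X)
    (hXA : Subgroup.closure {g : X | ∃ φ ∈ A, ∃ x : X, g = x⁻¹ * φ x} = ⊤)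
    {a : ℕ} (ha : 3 ≤ a) (hexp : ∀ b ∈ B, b ^ 2 ^ a = 1) (hne : ∃ b ∈ B, b ^ 2 ^ (a - 1) ≠ 1) : False := by
  set c := 2 ^ (a - 1) with hcdef
  set d := 2 ^ (a - 2) with hddef
  set e := 2 ^ (a - 3) with hedef
  have hcd : c = 2 * d := by rw [hcdef, hddef, ← pow_succ']; congr 1; omega
  have hde : d = 2 * e := by rw [hddef, hedef, ← pow_succ']; congr 1; omega
  have h : MovedExp A B W α c d := ⟨hb, hcd, fun b hb' => by
    rw [← pow_add, hcdef, ← two_mul, ← pow_succ', show a - 1 + 1 = a by omega]; exact hexp b hb', hne⟩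
  have hm := h.family
  have hsc := fun (x : X) (hx : ∀ b ∈ B, ⁅x, b⁆ = 1) => h.self_centralizing hX hx
  -- an element outside `B` with trivial family member
  have hmono : ∀ x : X, x * x ∈ B → ∀ w ∈ W, MovedExp.mfun B c d x w = 1 := by
    intro x hx2
    rcases h.zero_or_inj hXA x with h0 | hinj
    · exact h0
    exfalso
    have hid : ∀ w ∈ W, MovedExp.mfun B c d x w = w := by
      intro w hw
      obtain ⟨hpB, hpc⟩ := h.pick_spec hw
      set b := MovedExp.pick B c w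
      obtain ⟨c1, hc1, hc1e⟩ := h.comm_square x hpB
      have e1 : ⁅x * x, b⁆ = 1 := commutatorElement_eq_one_iff_mul_comm.2 (hb.comm hx2 hpB)
      rw [hb.comm_self hpB, hc1e, hb.comm_mul_right x hc1 hc1] at e1
      have e2 : ⁅x, c1⁆ ^ d * (c1 * c1) ^ d = 1 := by
        have := congrArg (fun z => z ^ e) e1
        simp only [one_pow] at this
        have hk := hb.comm_mem x hc1
        rw [hb.mul_pow' (B.mul_mem (B.mul_mem hk hk) (B.mul_mem hc1 hc1)) (B.mul_mem hc1 hc1),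
          hb.mul_pow' (B.mul_mem hk hk) (B.mul_mem hc1 hc1), ← pow_two ⁅x, c1⁆, ← pow_mul, ← hde,
          mul_assoc, ← pow_add, ← two_mul, ← hde] at this
        exact this
      have hμ : (c1 * c1) ^ d = MovedExp.mfun B c d x w := by rw [← hc1e]; rfl
      have hπ : c1 ^ c = MovedExp.mfun B c d x w := by rw [← hμ, hcd, pow_mul, pow_two]
      have hmW : MovedExp.mfun B c d x w ∈ W := hm.mem x (mem_top x) w hw
      have e3 : MovedExp.mfun B c d x (MovedExp.mfun B c d x w) = MovedExp.mfun B c d x w := by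
        conv_lhs => rw [← hπ, h.mfun_eq x hc1]
        rw [eq_inv_of_mul_eq_one_left e2, hμ]
        exact inv_eq_of_mul_eq_one_left (hb.sq_one hmW)
      have e4 : MovedExp.mfun B c d x (MovedExp.mfun B c d x w * w) = 1 := by
        rw [hm.right x (mem_top x) _ hmW w hw, e3, hb.sq_one hmW]
      have e5 := hinj _ (W.mul_mem hmW hw) e4
      rw [eq_inv_of_mul_eq_one_left e5]
      exact inv_eq_of_mul_eq_one_left (hb.sq_one hw)
    obtain ⟨q, hq, hq1⟩ : ∃ q ∈ W, q ≠ 1 := by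
      by_contra hn
      push Not at hn
      have : W = ⊥ := (Subgroup.eq_bot_iff_forall W).2 hn
      have h4 := hb.card
      rw [this, Subgroup.card_bot] at h4
      omega
    have hS := h.orbit_eq_one hXA x hq
    have a1 := hb.cyc.inv q hq
    rw [orbitProd, hid q hq, hid _ a1, hid _ (hb.cyc.inv _ a1), hb.cyc.cube q hq, hb.sq_one hq, one_mul] at hS
    exact hq1 hS
  obtain ⟨x₀, hx₀⟩ : ∃ x₀, x₀ ∉ B := by
    by_contra hn
    push Not at hn
    exact hna ⟨⟨fun u v => hb.comm (hn u) (hn v)⟩⟩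
  let L : Subgroup X :=
    { carrier := {x | ∀ w ∈ W, MovedExp.mfun B c d x w = 1}
      one_mem' := hmono 1 (by rw [one_mul]; exact B.one_mem)
      mul_mem' := fun {u v} hu hv w hw => by rw [h.mfun_mul u v hw, hu w hw, hv w hw, one_mul]
      inv_mem' := fun {u} hu w hw => by
        have := h.mfun_mul u⁻¹ u hw
        rw [inv_mul_cancel, hmono 1 (by rw [one_mul]; exact B.one_mem) w hw, hu w hw, mul_one] at this
        exact this.symm }
  obtain ⟨y, hyL, hyB⟩ : ∃ y ∈ L, y ∉ B := by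
    by_cases h2 : x₀ * x₀ ∈ B
    · exact ⟨x₀, hmono x₀ h2, hx₀⟩
    · exact ⟨x₀ * x₀, fun w hw => by rw [h.mfun_mul x₀ x₀ hw, hb.sq_one (hm.mem x₀ (mem_top x₀) w hw)], h2⟩
  obtain ⟨t, htL, htB, ht2⟩ := exists_sq_in hX hyL hyB
  -- commutators with `t` are high powers
  have hlev : ∀ k : ℕ, k ≤ a - 3 → ∀ b ∈ B, ∃ f ∈ B, ⁅t, b⁆ = f ^ 2 ^ (k + 2) := by
    intro k
    induction k with
    | zero =>
      intro _ b hb'
      obtain ⟨c1, hc1, hc1e⟩ := h.comm_square t hb'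
      have h1 := htL _ (h.pi_mem hb')
      rw [h.mfun_eq t hb', hc1e, ← pow_two, ← pow_mul, ← hcd] at h1
      obtain ⟨e1, he1, he1e⟩ := hb.pow_ker h.exp h.ne hc1 h1
      exact ⟨e1, he1, by rw [hc1e, he1e]; simp [pow_succ, mul_assoc]⟩
    | succ k ih =>
      intro hk b hb'
      obtain ⟨f, hf, hfe⟩ := ih (by omega) b hb'
      obtain ⟨g, hg, hge⟩ := ih (by omega) f hf
      have e1 : ⁅t * t, b⁆ = 1 := commutatorElement_eq_one_iff_mul_comm.2 (hb.comm ht2 hb')
      rw [hb.comm_self hb'] at e1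
      have e2 : ⁅t, ⁅t, b⁆⁆ = g ^ 2 ^ (k + 2 + (k + 2)) := by
        rw [hfe, hb.comm_pow_right t hf, hge, ← pow_mul, ← pow_add]
      have hD := hb.comm_mem t hb'
      have e3 : ⁅t, b⁆ * ⁅t, b⁆ = g⁻¹ ^ 2 ^ (k + 2 + (k + 2)) := by
        rw [inv_pow, ← e2]
        exact eq_inv_of_mul_eq_one_right (by rw [← mul_assoc]; exact e1)
      set h' := g⁻¹ ^ 2 ^ (k + 2 + (k + 2) - (k + 1 + 3)) with hh'
      have hh'B : h' ∈ B := pow_mem (B.inv_mem hg) _
      have e4 : ⁅t, b⁆ * ⁅t, b⁆ = (h' ^ 2 ^ (k + 1 + 2)) * (h' ^ 2 ^ (k + 1 + 2)) := by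
        rw [e3, ← pow_two, hh', ← pow_mul, ← pow_mul, ← pow_succ, ← pow_add]
        congr 2
        omega
      set z := h' ^ 2 ^ (k + 1 + 2) with hz
      have hzB : z ∈ B := pow_mem hh'B _
      have hw : z⁻¹ * ⁅t, b⁆ ∈ W := (hb.memW _).2 ⟨B.mul_mem (B.inv_mem hzB) hD, by
        rw [← pow_two, hb.mul_pow' (B.inv_mem hzB) hD, pow_two, pow_two, e4, ← mul_inv_rev, inv_mul_cancel]⟩
      obtain ⟨f2, hf2, hf2e⟩ := hb.pow_surj h.exp h.ne _ hw
      refine ⟨h' * f2 ^ 2 ^ (a - 1 - (k + 1 + 2)), B.mul_mem hh'B (pow_mem hf2 _), ?_⟩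
      rw [hb.mul_pow' hh'B (pow_mem hf2 _), ← pow_mul f2, ← pow_add,
        show a - 1 - (k + 1 + 2) + (k + 1 + 2) = a - 1 by omega, ← hcdef, hf2e, ← hz, mul_inv_cancel_left]
  have htW : ∀ b ∈ B, ⁅t, b⁆ ∈ W := fun b hb' => by
    obtain ⟨f, hf, hfe⟩ := hlev (a - 3) le_rfl b hb'
    rw [hfe, show a - 3 + 2 = a - 1 by omega]
    exact h.pi_mem hf
  -- the subgroup of all such elements
  have hleft : ∀ {u v : X}, (∀ b ∈ B, ⁅v, b⁆ ∈ W) → ∀ b ∈ B, ⁅u * v, b⁆ = ⁅v, b⁆ * ⁅u, b⁆ := by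
    intro u v hv b hb'
    rw [MovedData.comm_mul_left, hb.cyc.comm (hv b hb') u, mul_inv_cancel_right]
  let L₁ : Subgroup X :=
    { carrier := {x | ∀ b ∈ B, ⁅x, b⁆ ∈ W}
      one_mem' := fun b _ => by rw [commutatorElement_one_left]; exact W.one_mem
      mul_mem' := fun {u v} hu hv b hb' => by rw [hleft hv b hb']; exact W.mul_mem (hv b hb') (hu b hb')
      inv_mem' := fun {u} hu b hb' => by
        have := hleft (u := u⁻¹) hu b hb'
        rw [inv_mul_cancel, commutatorElement_one_left] at this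
        rw [eq_inv_of_mul_eq_one_right this.symm]
        exact W.inv_mem (hu b hb') }
  let m₁ : X → X → X := fun x w => ⁅x, MovedExp.pick B c w⁆
  have hm₁ : ∀ {x : X}, x ∈ L₁ → ∀ {b : X}, b ∈ B → m₁ x (b ^ c) = ⁅x, b⁆ := by
    intro x hx b hb'
    obtain ⟨hpB, hpc⟩ := h.pick_spec (h.pi_mem hb')
    obtain ⟨g, hg, hge⟩ := hb.pow_ker h.exp h.ne (B.mul_mem (B.inv_mem hpB) hb') (by
      rw [hb.mul_pow' (B.inv_mem hpB) hb', inv_pow, hpc, inv_mul_cancel])
    have : b = MovedExp.pick B c (b ^ c) * (g * g) := by rw [← hge]; group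
    show ⁅x, MovedExp.pick B c (b ^ c)⁆ = ⁅x, b⁆
    conv_rhs => rw [this]
    rw [hb.comm_mul_right x hpB (B.mul_mem hg hg), hb.comm_mul_right x hg hg, hb.sq_one (hx g hg), mul_one]
  have hfam : EndFamily W α L₁ m₁ :=
    { mem := fun x hx w hw => hx _ (h.pick_spec hw).1
      left := fun x hx y hy w hw => by
        show ⁅x * y, _⁆ = ⁅x, _⁆ * ⁅y, _⁆
        rw [hleft hy _ (h.pick_spec hw).1, hb.cyc.comm (hx _ (h.pick_spec hw).1)]
      right := fun x hx v hv w hw => by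
        obtain ⟨hb1, he1⟩ := h.pick_spec hv
        obtain ⟨hb2, he2⟩ := h.pick_spec hw
        have e : v * w = (MovedExp.pick B c v * MovedExp.pick B c w) ^ c := by
          rw [hb.mul_pow' hb1 hb2, he1, he2]
        rw [e, hm₁ hx (B.mul_mem hb1 hb2), hb.comm_mul_right x hb1 hb2]
      invL := fun x hx b hb' => by
        have := hb.wi α hb.αA _ (hx _ (hb.bi _ (A.inv_mem hb.αA) b hb'))
        rwa [map_commutatorElement, show α (α⁻¹ b) = b from α.apply_symm_apply b] at this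
      equiv := fun x hx w hw => by
        obtain ⟨hp, hpe⟩ := h.pick_spec hw
        have e : α w = α (MovedExp.pick B c w) ^ c := by rw [← map_pow, hpe]
        have hαx : α x ∈ L₁ := fun b hb' => by
          have := hb.wi α hb.αA _ (hx _ (hb.bi _ (A.inv_mem hb.αA) b hb'))
          rwa [map_commutatorElement, show α (α⁻¹ b) = b from α.apply_symm_apply b] at this
        rw [e, hm₁ hαx (hb.bi α hb.αA _ hp), ← map_commutatorElement] }
  obtain ⟨s, hsL, hsinj⟩ := hfam.exists_injective hb.cyc (x := t) htW (by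
    by_contra hn
    push Not at hn
    refine htB (hsc t fun b hb' => ?_)
    rw [← hm₁ htW hb']
    exact hn _ (h.pi_mem hb'))
  have hsB : s ∉ B := by
    intro hs
    obtain ⟨q, hq, hq1⟩ := hne
    exact hq1 (hsinj _ (h.pi_mem hq) (by
      rw [hm₁ hsL hq, commutatorElement_eq_one_iff_mul_comm.2 (hb.comm hs hq)]))
  have hs2 : s * s ∈ B := hsc _ fun b hb' => by
    rw [hb.comm_self hb', hb.comm_W s (hsL b hb'), one_mul, hb.sq_one (hsL b hb')]
  -- the map `b ↦ b² [s, b]` covers all squares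
  let φB : B →* B := MonoidHom.mk' (fun b => ⟨b * b * ⁅s, (b : X)⁆, B.mul_mem (B.mul_mem b.2 b.2)
      (hb.comm_mem s b.2)⟩) fun u v => Subtype.ext (by
    show (u : X) * v * (u * v) * ⁅s, (u : X) * v⁆ = u * u * ⁅s, (u : X)⁆ * (v * v * ⁅s, (v : X)⁆)
    rw [← pow_two, hb.mul_pow' u.2 v.2, hb.comm_mul_right s u.2 v.2, pow_two, pow_two]
    set k := ⁅s, (u : X)⁆
    have hk : k ∈ W := hsL u u.2
    calc (u : X) * u * (v * v) * (k * ⁅s, (v : X)⁆) = u * u * ((v * v) * k) * ⁅s, (v : X)⁆ := by simp only [mul_assoc]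
      _ = u * u * (k * (v * v)) * ⁅s, (v : X)⁆ := by rw [hb.cyc.comm hk]
      _ = _ := by simp only [mul_assoc])
  have hkerW : ∀ b : X, b ∈ B → (b * b * ⁅s, b⁆ = 1 ↔ b * b = 1) := by
    intro b hb'
    refine ⟨fun he => ?_, fun he => by rw [he, hb.comm_W s ((hb.memW b).2 ⟨hb', he⟩), one_mul]⟩
    have hbb : b * b = ⁅s, b⁆ := by
      rw [eq_inv_of_mul_eq_one_left he]; exact inv_eq_of_mul_eq_one_left (hb.sq_one (hsL b hb'))
    have h4 : b * b * (b * b) = 1 := by rw [hbb]; exact hb.sq_one (hsL b hb')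
    have hc1 : b ^ c = 1 := by
      rw [hcdef, show a - 1 = 2 + (a - 3) by omega, pow_add, pow_mul,
        show b ^ 2 ^ 2 = 1 by simpa [pow_succ, mul_assoc] using h4, one_pow]
    have : ⁅s, b⁆ = 1 := by
      rw [← hm₁ hsL hb', hc1]; exact hfam.one_right hsL
    rw [hbb, this]
  obtain ⟨g, hg, hge⟩ : ∃ g ∈ B, g * g * ⁅s, g⁆ = (s * s)⁻¹ := by
    have h1 : ⁅s, s * s⁆ = 1 := by simp [commutatorElement_def, mul_assoc]
    have h2 : (s * s) ^ c = 1 := hsinj _ (h.pi_mem hs2) (by rw [hm₁ hsL hs2, h1])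
    obtain ⟨r, hr, hre⟩ := hb.pow_ker h.exp h.ne hs2 h2
    let sq : B →* B := MonoidHom.mk' (fun b => b * b) fun u v => by
      apply Subtype.ext
      have := hb.mul_pow' u.2 v.2 2
      simpa [pow_two] using this
    have hsub : φB.range ≤ sq.range := by
      rintro _ ⟨b, rfl⟩
      have hk : ⁅s, (b : X)⁆ ^ c = 1 := by rw [← hb.comm_pow_right s b.2]; exact hb.comm_W s (h.pi_mem b.2)
      obtain ⟨r', hr', hre'⟩ := hb.pow_ker h.exp h.ne (hb.comm_mem s b.2) hk
      refine ⟨b * ⟨r', hr'⟩, Subtype.ext ?_⟩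
      show (b : X) * r' * (b * r') = b * b * ⁅s, (b : X)⁆
      rw [hre', ← pow_two, hb.mul_pow' b.2 hr', pow_two, pow_two]
    have hker : φB.ker = sq.ker := by
      ext b
      rw [MonoidHom.mem_ker, MonoidHom.mem_ker]
      refine ⟨fun e => Subtype.ext ((hkerW b b.2).1 (congrArg Subtype.val e)),
        fun e => Subtype.ext ((hkerW b b.2).2 (congrArg Subtype.val e))⟩
    have e1 := φB.ker.card_mul_index
    rw [Subgroup.index_ker] at e1
    have e2 := sq.ker.card_mul_index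
    rw [Subgroup.index_ker, ← hker] at e2
    have heq : φB.range = sq.range := Subgroup.eq_of_le_of_card_ge hsub
      (Nat.eq_of_mul_eq_mul_left Nat.card_pos (e2.trans e1.symm)).le
    have hmem : (⟨(s * s)⁻¹, B.inv_mem hs2⟩ : B) ∈ sq.range := ⟨⟨r⁻¹, B.inv_mem hr⟩, Subtype.ext (by
      show r⁻¹ * r⁻¹ = (s * s)⁻¹
      rw [hre, mul_inv_rev])⟩
    rw [← heq] at hmem
    obtain ⟨g, hg⟩ := hmem
    exact ⟨g, g.2, congrArg Subtype.val hg⟩
  set u := s * g with hu
  have huu : u * u = 1 := by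
    have hk := hsL g hg
    have e1 : g * s = s * (⁅s, g⁆ * g) := by
      calc g * s = (⁅s, g⁆ * ⁅s, g⁆) * (g * s) := by rw [hb.sq_one hk, one_mul]
        _ = ⁅s, g⁆ * (⁅s, g⁆ * g * s) := by simp only [mul_assoc]
        _ = ⁅s, g⁆ * (s * g) := by simp [commutatorElement_def, mul_assoc]
        _ = ⁅s, g⁆ * s * g := by rw [mul_assoc]
        _ = s * (⁅s, g⁆ * g) := by rw [← hb.cyc.comm hk s, mul_assoc]
    calc u * u = s * (g * s) * g := by rw [hu]; simp only [mul_assoc]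
      _ = s * s * (⁅s, g⁆ * g * g) := by rw [e1]; simp only [mul_assoc]
      _ = s * s * (g * g * ⁅s, g⁆) := by rw [mul_assoc ⁅s, g⁆, hb.cyc.comm hk (g * g)]
      _ = 1 := by rw [hge, mul_inv_cancel]
  have huD : ∀ b ∈ B, ⁅u, b⁆ = ⁅s, b⁆ := fun b hb' => by
    rw [hu, MovedData.comm_mul_left, commutatorElement_eq_one_iff_mul_comm.2 (hb.comm hg hb')]
    simp
  have huB : u ∉ B := fun hu' => hsB (by
    have := B.mul_mem hu' (B.inv_mem hg)
    rwa [hu, mul_inv_cancel_right] at this)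
  refine huB (hb.mem_B (hb.noExt u huu fun y => ?_))
  set k := ⁅y, u⁆ with hk
  have hkB : k ∈ B := by
    refine hsc k fun b hb' => ?_
    have hconj : ∀ z : X, ∀ v ∈ B, z * v * z⁻¹ = ⁅z, v⁆ * v := fun z v _ => by simp [commutatorElement_def]
    have hz : ∀ v ∈ B, y * u * v * (y * u)⁻¹ = u * y * v * (u * y)⁻¹ → ⁅y, u⁆ * (u * y * v * (u * y)⁻¹) = (u * y * v * (u * y)⁻¹) * ⁅y, u⁆ := by
      intro v _ he'
      calc ⁅y, u⁆ * (u * y * v * (u * y)⁻¹) = (y * u * v * (y * u)⁻¹) * ⁅y, u⁆ := by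
            simp [commutatorElement_def, mul_assoc]
        _ = _ := by rw [he']
    set v := (u * y)⁻¹ * b * (u * y)
    have hv : v ∈ B := by
      have := hb.bn.conj_mem b hb' (u * y)⁻¹
      rwa [inv_inv] at this
    have hvb : u * y * v * (u * y)⁻¹ = b := by simp [v, mul_assoc]
    obtain ⟨r, hr, hre⟩ := h.comm_square y hv
    have h2 : ⁅u, ⁅y, v⁆⁆ = 1 := by
      rw [huD _ (hb.comm_mem y hv), hre, hb.comm_mul_right s hr hr]; exact hb.sq_one (hsL r hr)
    have hW' : ⁅u, v⁆ ∈ W := huD v hv ▸ hsL v hv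
    have he' : y * u * v * (y * u)⁻¹ = u * y * v * (u * y)⁻¹ := by
      calc y * u * v * (y * u)⁻¹ = y * (u * v * u⁻¹) * y⁻¹ := by simp [mul_assoc]
        _ = u * (y * v * y⁻¹) * u⁻¹ := by
          rw [hconj u v hv, hconj y _ (B.mul_mem (hb.mem_B hW') hv), hb.comm_mul_right y (hb.mem_B hW') hv,
            hb.comm_W y hW', one_mul, hconj y v hv, hconj u _ (B.mul_mem (hb.comm_mem y hv) hv),
            hb.comm_mul_right u (hb.comm_mem y hv) hv, h2, one_mul, ← mul_assoc ⁅y, v⁆ ⁅u, v⁆ v,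
            hb.cyc.comm hW' ⁅y, v⁆, mul_assoc]
        _ = _ := by simp [mul_assoc]
    rw [hk, commutatorElement_eq_one_iff_mul_comm]
    have := hz v hv he'
    rwa [hvb] at this
  refine (hb.memW k).2 ⟨hkB, ?_⟩
  have h2 : (k * u) * (k * u) = 1 := by
    rw [hk, commutatorElement_def, inv_mul_cancel_right]
    calc y * u * y⁻¹ * (y * u * y⁻¹) = y * (u * u) * y⁻¹ := by group
      _ = 1 := by rw [huu, mul_one, mul_inv_cancel]
  have e : u * k = ⁅s, k⁆ * k * u := by rw [← huD k hkB]; simp [commutatorElement_def]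
  refine (hkerW k hkB).1 ?_
  calc k * k * ⁅s, k⁆ = k * (⁅s, k⁆ * k) := by rw [mul_assoc, hb.comm hkB (hb.comm_mem s hkB)]
    _ = k * (⁅s, k⁆ * k * (u * u)) := by rw [huu, mul_one]
    _ = k * (u * k * u) := by rw [e]; simp only [mul_assoc]
    _ = 1 := by rw [← h2]; simp only [mul_assoc]

end Cfsg.Agent.Lib.OddAutTwo
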