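import Mathlib
import Cfsg.Agent.Lib.UniqueInvolution
import Cfsg.Agent.Lib.OddAutTwo.ClassTwo

/-! The orders of the special two-groups with odd-order fixed-point-free automorphism groups and no
normal elementary abelian subgroup of order eight. -/

set_option autoImplicit false

namespace Cfsg.Agent.Lib.OddAutTwo

open Subgroup Cfsg
open scoped commutatorElement

variable {X : Type*} [Group X] [Finite X]

/-- The action of the automorphisms on the central quotient. -/
@[reducible] def quotAction (A : Subgroup (MulAut X)) : MulAction A (X ⧸ center X) where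
  smul φ q := QuotientGroup.map (center X) (center X) (φ : MulAut X).toMonoidHom
    (fun x hx => inv_of_characteristic A (center X) (φ : MulAut X) φ.2 x hx) q
  one_smul q := by
    induction q using QuotientGroup.induction_on
    rfl
  mul_smul φ ψ q := by
    induction q using QuotientGroup.induction_on
    rfl

/-- If the central quotient has order four or eight, the automorphisms are transitive on its nontrivial elements. -/
theorem transitive_quotient {A : Subgroup (MulAut X)} (hA : Odd (Nat.card A))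
    (hfix : ∀ y : X, (∀ φ ∈ A, y⁻¹ * φ y ∈ center X) → y ∈ center X)
    (hq : Nat.card (X ⧸ center X) = 4 ∨ Nat.card (X ⧸ center X) = 8) {y₁ y₂ : X} (h1 : y₁ ∉ center X)
    (h2 : y₂ ∉ center X) : ∃ φ ∈ A, (φ y₁)⁻¹ * y₂ ∈ center X := by
  letI := quotAction A
  have hsmul : ∀ (φ : A) (y : X), φ • (y : X ⧸ center X) = (((φ : MulAut X) y : X) : X ⧸ center X) :=
    fun _ _ => rfl
  have hsz : ∀ {q : (X ⧸ center X)}, q ≠ 1 → 3 ≤ (MulAction.orbit A q).ncard ∧ Odd (MulAction.orbit A q).ncard := by
    intro q hq1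
    have hd : (MulAction.orbit A q).ncard ∣ Nat.card A := by
      rw [← MulAction.index_stabilizer]; exact Subgroup.index_dvd_card _
    have hodd := hA.of_dvd_nat hd
    refine ⟨?_, hodd⟩
    rcases Nat.lt_or_ge (MulAction.orbit A q).ncard 3 with hlt | hge
    · exfalso
      have h1' : (MulAction.orbit A q).ncard = 1 := by obtain ⟨k, hk⟩ := hodd; omega
      obtain ⟨a, ha⟩ := Set.ncard_eq_one.1 h1'
      obtain ⟨y, rfl⟩ := QuotientGroup.mk_surjective q
      refine hq1 ((QuotientGroup.eq_one_iff y).2 (hfix y fun φ hφ => ?_))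
      have e1 : (y : (X ⧸ center X)) ∈ MulAction.orbit A (y : (X ⧸ center X)) := MulAction.mem_orbit_self _
      have e2 : (⟨φ, hφ⟩ : A) • (y : (X ⧸ center X)) ∈ MulAction.orbit A (y : (X ⧸ center X)) := MulAction.mem_orbit _ _
      rw [ha, Set.mem_singleton_iff] at e1 e2
      rw [hsmul] at e2
      exact QuotientGroup.eq.1 (e1.trans e2.symm)
    · exact hge
  have hone : ∀ φ : A, φ • (1 : (X ⧸ center X)) = 1 := fun φ => by
    rw [← QuotientGroup.mk_one, hsmul, map_one]
  have hno1 : ∀ {q : (X ⧸ center X)}, q ≠ 1 → (1 : (X ⧸ center X)) ∉ MulAction.orbit A q := by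
    intro q hq1 hm
    obtain ⟨φ, hφ⟩ := hm
    exact hq1 (smul_left_cancel φ (hφ.trans (hone φ).symm))
  by_contra hn
  push Not at hn
  have hy1 : (y₁ : (X ⧸ center X)) ≠ 1 := fun e => h1 ((QuotientGroup.eq_one_iff y₁).1 e)
  have hy2 : (y₂ : (X ⧸ center X)) ≠ 1 := fun e => h2 ((QuotientGroup.eq_one_iff y₂).1 e)
  have hnot : (y₂ : (X ⧸ center X)) ∉ MulAction.orbit A (y₁ : (X ⧸ center X)) := by
    rintro ⟨φ, hφ⟩
    exact hn φ φ.2 (QuotientGroup.eq.1 ((hsmul φ y₁).symm.trans hφ))
  set O1 := MulAction.orbit A (y₁ : (X ⧸ center X))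
  set O2 := MulAction.orbit A (y₂ : (X ⧸ center X))
  have hdisj : Disjoint O1 O2 := by
    rw [Set.disjoint_left]
    intro q hq1 hq2
    apply hnot
    rw [← MulAction.orbit_eq_iff] at hq1 hq2 ⊢
    rw [← hq2, hq1]
  have hu := Set.ncard_union_eq hdisj
  obtain ⟨hs1, ho1⟩ := hsz hy1
  obtain ⟨hs2, ho2⟩ := hsz hy2
  have hsub : O1 ∪ O2 ⊆ ({1} : Set (X ⧸ center X))ᶜ := by
    intro q hq0
    rw [Set.mem_compl_iff, Set.mem_singleton_iff]
    rintro rfl
    rcases hq0 with h | h
    · exact hno1 hy1 h
    · exact hno1 hy2 h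
  have hcomp : ({1} : Set (X ⧸ center X))ᶜ.ncard = Nat.card (X ⧸ center X) - 1 := by
    rw [Set.ncard_compl, Set.ncard_singleton]
  have hle := Set.ncard_le_ncard hsub
  rw [hu, hcomp] at hle
  obtain ⟨j1, hj1⟩ := ho1
  obtain ⟨j2, hj2⟩ := ho2
  change 3 ≤ O1.ncard at hs1
  change O1.ncard = _ at hj1
  change 3 ≤ O2.ncard at hs2
  change O2.ncard = _ at hj2
  -- a seventh point would be a third orbit of size one
  rcases hq with hq | hq
  · omega
  · obtain ⟨q, hqc, hqn⟩ : ∃ q ∈ ({1} : Set (X ⧸ center X))ᶜ, q ∉ O1 ∪ O2 := by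
      by_contra hc
      push Not at hc
      have hle2 := Set.ncard_le_ncard (show ({1} : Set (X ⧸ center X))ᶜ ⊆ O1 ∪ O2 from hc)
      rw [hu, hcomp] at hle2
      omega
    have hd3 : Disjoint (O1 ∪ O2) (MulAction.orbit A q) := by
      rw [Set.disjoint_left]
      rintro a (ha | ha) haq
      · refine hqn (Or.inl ?_)
        rw [← MulAction.orbit_eq_iff] at ha haq ⊢
        rw [← haq, ha]
      · refine hqn (Or.inr ?_)
        rw [← MulAction.orbit_eq_iff] at ha haq ⊢
        rw [← haq, ha]
    have hu3 := Set.ncard_union_eq hd3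
    have hsub3 : O1 ∪ O2 ∪ MulAction.orbit A q ⊆ ({1} : Set (X ⧸ center X))ᶜ := by
      rintro a (ha | ha)
      · exact hsub ha
      · intro ha1
        rw [Set.mem_singleton_iff] at ha1
        exact hno1 (fun e => hqc (by simp [e])) (ha1 ▸ ha)
    have hle3 := Set.ncard_le_ncard hsub3
    rw [hu3, hu, hcomp] at hle3
    obtain ⟨hs3, -⟩ := hsz (show q ≠ 1 from fun e => hqc (by simp [e]))
    omega

/-- The hypotheses for counting. -/
structure SmallData (A : Subgroup (MulAut X)) : Prop where
  sc : SqCentral X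
  hX : IsPGroup 2 X
  hna : ¬ IsMulCommutative X
  hA : Odd (Nat.card A)
  hfix : ∀ y : X, (∀ φ ∈ A, y⁻¹ * φ y ∈ center X) → y ∈ center X
  hE : ∀ E : Subgroup X, E.Normal → IsElementaryAbelian 2 E → Nat.card E ≤ 4
  comm_eq : commutator X = center X

namespace SmallData

variable {A : Subgroup (MulAut X)} (h : SmallData A)
include h

theorem card_pow : ∃ n : ℕ, Nat.card X = 2 ^ n := IsPGroup.iff_card.1 h.hX

theorem lt_card {E F : Subgroup X} (hlt : E < F) : 2 * Nat.card E ≤ Nat.card F := by
  obtain ⟨i, hi⟩ := IsPGroup.iff_card.1 (h.hX.to_subgroup E)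
  obtain ⟨j, hj⟩ := IsPGroup.iff_card.1 (h.hX.to_subgroup F)
  have hlt' : Nat.card E < Nat.card F := lt_of_le_of_ne (card_le_of_le hlt.le)
    fun e => hlt.ne (Subgroup.eq_of_le_of_card_ge hlt.le e.ge)
  rw [hi, hj] at hlt' ⊢
  rw [← pow_succ']
  exact Nat.pow_le_pow_right (by omega) ((Nat.pow_lt_pow_iff_right (by omega)).1 hlt')

theorem quot_card : Nat.card X = Nat.card (X ⧸ center X) * Nat.card (center X) :=
  card_eq_card_quotient_mul_card_subgroup _

theorem not_two_generated {u : X} (hspan : h.sc.span u = ⊤) : False := by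
  refine h.hna ⟨⟨fun a b => ?_⟩⟩
  have key : ∀ x : X, ∀ y : X, ⁅x, u⁆ = 1 → ⁅x, y⁆ = 1 := by
    intro x y hx
    rcases h.sc.mem_span.1 (show y ∈ h.sc.span u by rw [hspan]; exact mem_top y) with hy | hy
    · exact commutatorElement_eq_one_iff_mul_comm.2 (mem_center_iff.1 hy x)
    · rw [show y = u * (u⁻¹ * y) by group, h.sc.comm_right, hx, one_mul]
      exact commutatorElement_eq_one_iff_mul_comm.2 (mem_center_iff.1 hy x)
  have hu : ∀ x : X, ⁅x, u⁆ = 1 := fun x => by
    rw [h.sc.comm_symm]
    exact key u x (commutatorElement_self u)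
  exact commutatorElement_eq_one_iff_mul_comm.1 (key a b (hu a))

theorem extend {E : Subgroup X} (hEn : E.Normal) (hE2 : ∀ w ∈ E, w * w = 1) (hZE : center X ≤ E) {t : X}
    (ht : t * t = 1) (htE : t ∉ E) (hcent : ∀ w ∈ E, w * t = t * w) :
    ∃ F : Subgroup X, F.Normal ∧ IsElementaryAbelian 2 F ∧ E < F ∧ t ∈ F :=
  extend_elementary hEn hE2 ht htE hcent fun y => hZE (h.sc.comm_mem y t)

theorem sq_ne_one_of_four (h4 : Nat.card (center X) = 4) {y : X} (hy : y ∉ center X) : y * y ≠ 1 := by
  intro hy2
  obtain ⟨F, hFn, hFe, hlt, -⟩ := h.extend inferInstance h.sc.cen_sq le_rfl hy2 hy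
    fun w hw => (mem_center_iff.1 hw y).symm
  have := h.hE F hFn hFe
  have := h.lt_card hlt
  omega

theorem no_pair (h2 : Nat.card (center X) = 2) {t s : X} (ht : t * t = 1) (htZ : t ∉ center X)
    (hs : s * s = 1) (hsK : s ∉ h.sc.span t) (hc : ⁅s, t⁆ = 1) : False := by
  obtain ⟨F, hFn, hFe, hlt, htF⟩ := h.extend inferInstance h.sc.cen_sq le_rfl ht htZ
    fun w hw => (mem_center_iff.1 hw t).symm
  have hFsq : ∀ w ∈ F, w * w = 1 := fun w hw => by rw [← pow_two]; exact hFe.2 w hw
  have hFspan : F ≤ h.sc.span t := by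
    have hle : h.sc.span t ≤ F := by
      rintro y (hy | hy)
      · exact hlt.le hy
      · rw [show y = t * (t⁻¹ * y) by group]; exact F.mul_mem htF (hlt.le hy)
    have hlt2 : center X < h.sc.span t :=
      lt_of_le_not_ge (h.sc.center_le_span t) fun hle => htZ (hle (h.sc.self_mem_span t))
    have := h.hE F hFn hFe
    have := h.lt_card hlt2
    exact (Subgroup.eq_of_le_of_card_ge hle (by omega)).ge
  have hsF : s ∉ F := fun hm => hsK (hFspan hm)
  obtain ⟨G, hGn, hGe, hlt2, -⟩ := h.extend hFn hFsq hlt.le hs hsF fun w hw => by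
    rcases h.sc.mem_span.1 (hFspan hw) with hw' | hw'
    · exact (mem_center_iff.1 hw' s).symm
    · have e : ⁅s, w⁆ = 1 := by
        rw [show w = t * (t⁻¹ * w) by group, h.sc.comm_right, hc, one_mul]
        exact commutatorElement_eq_one_iff_mul_comm.2 (mem_center_iff.1 hw' s)
      exact (commutatorElement_eq_one_iff_mul_comm.1 e).symm
  have := h.hE G hGn hGe
  have := h.lt_card hlt
  have := h.lt_card hlt2
  omega

theorem card_of_four (h4 : Nat.card (center X) = 4) : Nat.card X = 64 := by
  obtain ⟨n, hn⟩ := h.card_pow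
  have hidx : ∀ {z : X}, z ∈ center X → z ≠ 1 →
      Nat.card (center X) = 2 * Nat.card (zpowers z) := fun {z} hz hz1 => by
    rw [Nat.card_zpowers, orderOf_eq_prime (p := 2) (by rw [pow_two]; exact h.sc.cen_sq z hz) hz1, h4]
  -- a large centralizer is impossible
  have hbig : ∀ x : X, x ∉ center X → 64 ≤ Nat.card (h.sc.centMod ⊥ x) → False := by
    intro x hx hC
    have hz := h.sc.sq_mem x
    have hz1 := h.sq_ne_one_of_four h4 hx
    obtain ⟨y, hyC, hyK, hy2⟩ := h.sc.exists_sq_mem (L := zpowers (x * x)) (zpowers_le.2 hz) (hidx hz hz1)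
      (C := h.sc.centMod ⊥ x) (K := h.sc.span x) (h.sc.center_le_span x) (by
        rintro y (hy | hy)
        · exact h.sc.center_le_centMod ⊥ x hy
        · rw [h.sc.mem_centMod, show y = x * (x⁻¹ * y) by group, h.sc.comm_left, commutatorElement_self,
            commutatorElement_eq_one_iff_mul_comm.2 (mem_center_iff.1 hy x).symm, one_mul]
          exact one_mem _) (by have := h.sc.span_card x; omega)
    have hyx : ⁅y, x⁆ = 1 := mem_bot.1 hyC
    have hyZ : y ∉ center X := fun hy => hyK (Or.inl hy)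
    obtain ⟨j, hj⟩ := mem_zpowers_iff.1 hy2
    rcases Int.even_or_odd j with ⟨k, rfl⟩ | ⟨k, rfl⟩
    · rw [zpow_add, ← (show Commute (x * x) (x * x) from rfl).mul_zpow, h.sc.cen_sq _ hz, one_zpow] at hj
      exact h.sq_ne_one_of_four h4 hyZ hj.symm
    · rw [zpow_add, zpow_mul, zpow_one, show (x * x) ^ (2 : ℤ) = (x * x) * (x * x) from zpow_two _,
        h.sc.cen_sq _ hz, one_zpow, one_mul] at hj
      have : x * y * (x * y) = 1 := by rw [h.sc.sq_mul, hyx, one_mul, ← hj, h.sc.cen_sq _ hz]
      have hxy : x * y ∈ center X := by_contra fun hne => h.sq_ne_one_of_four h4 hne this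
      refine hyK (Or.inr ?_)
      have := mul_mem (inv_mem hz) hxy
      simpa [mul_assoc] using this
  have hq := h.quot_card
  rw [h4] at hq
  obtain ⟨x₀, hx₀⟩ : ∃ x, x ∉ center X := by
    by_contra hc
    push Not at hc
    exact h.hna ⟨⟨fun a b => mem_center_iff.1 (hc b) a⟩⟩
  obtain ⟨z, hz, hz1⟩ : ∃ z ∈ center X, z ≠ 1 := by
    by_contra hc
    push Not at hc
    have e : center X = ⊥ := (Subgroup.eq_bot_iff_forall _).2 hc
    rw [e, Subgroup.card_bot] at h4
    omega
  have hlow : 4 < Nat.card X := by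
    refine lt_of_le_of_ne (h4 ▸ card_le_card_group _) fun e => hx₀ ?_
    rw [(card_eq_iff_eq_top _).1 (h4.trans e)]
    exact mem_top x₀
  rcases Nat.lt_or_ge n 6 with hn6 | hn6
  · exfalso
    have hn3 : 3 ≤ n := by
      by_contra hc
      have := Nat.pow_le_pow_right (show 0 < 2 by omega) (show n ≤ 2 by omega)
      omega
    interval_cases n
    · -- order `8`
      refine h.not_two_generated (u := x₀) ((card_eq_iff_eq_top _).1 (le_antisymm (card_le_card_group _) ?_))
      have hlt2 : center X < h.sc.span x₀ :=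
        lt_of_le_not_ge (h.sc.center_le_span x₀) fun hle => hx₀ (hle (h.sc.self_mem_span x₀))
      have := h.lt_card hlt2
      omega
    · -- order `16`
      have hlt2 : center X < h.sc.span x₀ :=
        lt_of_le_not_ge (h.sc.center_le_span x₀) fun hle => hx₀ (hle (h.sc.self_mem_span x₀))
      obtain ⟨v, hv⟩ : ∃ v, v ∉ h.sc.span x₀ := by
        by_contra hc
        push Not at hc
        exact h.not_two_generated (eq_top_iff.2 fun a _ => hc a)
      have hgen : ∀ T : Subgroup X, center X ≤ T → x₀ ∈ T → v ∈ T → T = ⊤ := by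
        intro T hZT hxT hvT
        have hsT : h.sc.span x₀ ≤ T := by
          rintro y (hy | hy)
          · exact hZT hy
          · rw [show y = x₀ * (x₀⁻¹ * y) by group]; exact T.mul_mem hxT (hZT hy)
        have hlt3 : h.sc.span x₀ < T := lt_of_le_not_ge hsT fun hle => hv (hle hvT)
        refine (card_eq_iff_eq_top _).1 (le_antisymm (card_le_card_group _) ?_)
        have := h.lt_card hlt2
        have := h.lt_card hlt3
        omega
      set c := ⁅x₀, v⁆
      have hxT : h.sc.centMod (zpowers c) x₀ = ⊤ := hgen _ (h.sc.center_le_centMod _ _)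
        (by rw [h.sc.mem_centMod]; rw [commutatorElement_self]; exact one_mem _)
        (by rw [h.sc.mem_centMod]; rw [h.sc.comm_symm]; exact mem_zpowers c)
      have hvT : h.sc.centMod (zpowers c) v = ⊤ := hgen _ (h.sc.center_le_centMod _ _) (mem_zpowers c)
        (by rw [h.sc.mem_centMod]; rw [commutatorElement_self]; exact one_mem _)
      have hall : ∀ a b : X, ⁅a, b⁆ ∈ zpowers c := by
        intro a b
        have hT : h.sc.centMod (zpowers c) b = ⊤ := hgen _ (h.sc.center_le_centMod _ _)
          (by rw [h.sc.mem_centMod]; rw [h.sc.comm_symm]; exact (show b ∈ h.sc.centMod (zpowers c) x₀ by rw [hxT]; exact mem_top b))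
          (by rw [h.sc.mem_centMod]; rw [h.sc.comm_symm]; exact (show b ∈ h.sc.centMod (zpowers c) v by rw [hvT]; exact mem_top b))
        exact (show a ∈ h.sc.centMod (zpowers c) b by rw [hT]; exact mem_top a)
      have hle : center X ≤ zpowers c := by
        rw [← h.comm_eq, _root_.commutator_def, commutator_le]
        exact fun a _ b _ => hall a b
      have h5 := card_le_of_le hle
      have hc4 : orderOf c ≤ 2 := orderOf_le_of_pow_eq_one (by omega) (by rw [pow_two]; exact h.sc.cen_sq _ (h.sc.comm_mem x₀ v))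
      rw [Nat.card_zpowers, h4] at h5
      omega
    · -- order `32`
      have hq8 : Nat.card (X ⧸ center X) = 8 := by omega
      have htr := fun {y₁ y₂ : X} (h1 : y₁ ∉ center X) (h2 : y₂ ∉ center X) =>
        transitive_quotient h.hA h.hfix (Or.inr hq8) h1 h2
      classical
      haveI : Fintype X := Fintype.ofFinite X
      have hatt : ∀ w ∈ center X, w ≠ 1 → ∃ y, y ∉ center X ∧ y * y = w := by
        intro w hw hw1
        obtain ⟨y, -, hy, hy2⟩ := h.sc.exists_sq_mem (L := zpowers w) (zpowers_le.2 hw) (hidx hw hw1)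
          (C := ⊤) (K := center X) le_rfl le_top (by rw [card_top, hn, h4]; omega)
        refine ⟨y, hy, ?_⟩
        obtain ⟨j, hj⟩ := mem_zpowers_iff.1 hy2
        rcases Int.even_or_odd j with ⟨k, rfl⟩ | ⟨k, rfl⟩
        · rw [zpow_add, ← (show Commute w w from rfl).mul_zpow, h.sc.cen_sq _ hw, one_zpow] at hj
          exact absurd hj.symm (h.sq_ne_one_of_four h4 hy)
        · rw [zpow_add, zpow_mul, zpow_one, show w ^ (2 : ℤ) = w * w from zpow_two _,
            h.sc.cen_sq _ hw, one_zpow, one_mul] at hj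
          exact hj.symm
      let S : Finset X := Finset.univ.filter fun y => y ∉ center X
      let Z1 : Finset X := Finset.univ.filter fun w => w ∈ center X ∧ w ≠ 1
      have hmaps : ∀ y ∈ S, y * y ∈ Z1 := fun y hy => by
        simp only [S, Z1, Finset.mem_filter, Finset.mem_univ, true_and] at hy ⊢
        exact ⟨h.sc.sq_mem y, h.sq_ne_one_of_four h4 hy⟩
      have hfib := Finset.card_eq_sum_card_fiberwise hmaps
      obtain ⟨y₀, hy₀, hy₀2⟩ := hatt z hz hz1
      have hk : ∀ w ∈ Z1, (S.filter fun y => y * y = w).card = (S.filter fun y => y * y = z).card := by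
        intro w hw
        simp only [Z1, Finset.mem_filter, Finset.mem_univ, true_and] at hw
        obtain ⟨y₁, hy₁, hy₁2⟩ := hatt w hw.1 hw.2
        have hmap : ∀ {a b : X} {wa wb : X}, a ∉ center X → b ∉ center X → a * a = wa → b * b = wb →
            (S.filter fun y => y * y = wa).card ≤ (S.filter fun y => y * y = wb).card := by
          intro a b wa wb ha hb haa hbb
          obtain ⟨φ, hφ, hab⟩ := htr ha hb
          have e : φ wa = wb := by
            rw [← haa, ← hbb, show b = φ a * ((φ a)⁻¹ * b) by group, h.sc.sq_mul, h.sc.cen_sq _ hab, mul_one,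
              commutatorElement_eq_one_iff_mul_comm.2 (mem_center_iff.1 hab (φ a)).symm, one_mul, map_mul]
          refine Finset.card_le_card_of_injOn (fun y => φ y) (fun y hy => ?_) (φ.injective.injOn)
          simp only [S, Finset.coe_filter, Finset.mem_filter, Finset.mem_univ, true_and, Set.mem_setOf_eq] at hy ⊢
          refine ⟨fun hm => hy.1 ?_, by rw [← map_mul, hy.2, e]⟩
          have := inv_of_characteristic A (center X) φ⁻¹ (A.inv_mem hφ) _ hm
          rwa [show φ⁻¹ (φ y) = y from φ.symm_apply_apply y] at this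
        exact le_antisymm (hmap hy₁ hy₀ hy₁2 hy₀2) (hmap hy₀ hy₁ hy₀2 hy₁2)
      rw [Finset.sum_congr rfl hk, Finset.sum_const, smul_eq_mul] at hfib
      have hcZ : (Finset.univ.filter fun w : X => w ∈ center X).card = 4 := by
        rw [← h4, Nat.card_eq_fintype_card, Fintype.card_subtype]
      have hZ1 : Z1.card = 3 := by
        have e : Z1 = (Finset.univ.filter fun w : X => w ∈ center X).erase 1 := by
          ext w; simp [Z1, and_comm]
        rw [e, Finset.card_erase_of_mem (by simp), hcZ]
      have hS : S.card = 28 := by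
        have e : S = (Finset.univ.filter fun w : X => w ∈ center X)ᶜ := by ext w; simp [S]
        rw [e, Finset.card_compl, hcZ, ← Nat.card_eq_fintype_card, hn]; norm_num
      rw [hS, hZ1] at hfib
      omega
  rcases Nat.lt_or_ge n 7 with hn7 | hn7
  · have : n = 6 := by omega
    subst this
    simpa using hn
  exfalso
  rcases Nat.lt_or_ge n 8 with hn8 | hn8
  · have : n = 7 := by omega
    subst this
    have hL : zpowers z ≤ center X := zpowers_le.2 hz
    obtain ⟨s, hs, hsr⟩ := h.sc.exists_radical hL (hidx hz hz1) h4 (by simpa using hn)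
    have hC := h.sc.card_centMod_ge ⊥ s hsr
    have hz2 : Nat.card (zpowers z) = 2 := by have := hidx hz hz1; omega
    rw [hz2, hn] at hC
    exact hbig s hs (by omega)
  · have hC := h.sc.card_centMod_ge ⊥ x₀ (T := center X) (fun g => h.sc.comm_mem g x₀)
    have : 256 ≤ Nat.card X := by rw [hn]; exact le_trans (by norm_num) (Nat.pow_le_pow_right (by omega) hn8)
    rw [h4] at hC
    exact hbig x₀ hx₀ (by omega)

theorem of_two (h2 : Nat.card (center X) = 2) :
    Nonempty (X ≃* QuaternionGroup 2) ∨
      (Nat.card X = 32 ∧ Nat.card {x : X // x * x = 1} = 12) := by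
  classical
  haveI : Fintype X := Fintype.ofFinite X
  obtain ⟨n, hn⟩ := h.card_pow
  obtain ⟨x₀, hx₀⟩ : ∃ x, x ∉ center X := by
    by_contra hc
    push Not at hc
    exact h.hna ⟨⟨fun a b => mem_center_iff.1 (hc b) a⟩⟩
  have hbot : Nat.card (center X) = 2 * Nat.card (⊥ : Subgroup X) := by rw [Subgroup.card_bot, h2]
  have hq := h.quot_card
  rw [h2] at hq
  have hlt2 : center X < h.sc.span x₀ :=
    lt_of_le_not_ge (h.sc.center_le_span x₀) fun hle => hx₀ (hle (h.sc.self_mem_span x₀))
  have hn3 : 3 ≤ n := by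
    by_contra hc
    refine h.not_two_generated (u := x₀) ((card_eq_iff_eq_top _).1 (le_antisymm (card_le_card_group _) ?_))
    have := h.lt_card hlt2
    have h4 := Nat.pow_le_pow_right (show 0 < 2 by omega) (show n ≤ 2 by omega)
    omega
  -- if all noncentral squares agree
  have htrans : Nat.card (X ⧸ center X) = 4 ∨ Nat.card (X ⧸ center X) = 8 →
      ∀ y : X, y ∉ center X → y * y ≠ 1 := by
    intro hc y hy hy2
    apply h.hna
    have hall : ∀ u : X, u * u = 1 := by
      intro u
      by_cases hu : u ∈ center X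
      · exact h.sc.cen_sq u hu
      obtain ⟨φ, hφ, hab⟩ := transitive_quotient h.hA h.hfix hc hy hu
      rw [show u = φ y * ((φ y)⁻¹ * u) by group, h.sc.sq_mul, h.sc.cen_sq _ hab, mul_one,
        commutatorElement_eq_one_iff_mul_comm.2 (mem_center_iff.1 hab (φ y)).symm, one_mul, ← map_mul, hy2,
        map_one]
    exact ⟨⟨fun a b => mul_comm_of_sq (W := (⊤ : Subgroup X)) (fun w _ => hall w) (mem_top a) (mem_top b)⟩⟩
  have hexi : 4 ≤ n → ∃ u, u ∉ center X ∧ u * u = 1 := by
    intro h4
    have h16 := Nat.pow_le_pow_right (show 0 < 2 by omega) h4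
    rw [← hn] at h16
    obtain ⟨u, -, hu, hu2⟩ := h.sc.exists_sq_mem (L := ⊥) bot_le hbot (C := ⊤) (K := center X) le_rfl le_top
      (by rw [card_top, h2]; omega)
    exact ⟨u, hu, mem_bot.1 hu2⟩
  rcases Nat.lt_or_ge n 5 with hn5 | hn5
  · rcases (show n = 3 ∨ n = 4 by omega) with rfl | rfl
    · refine Or.inl ?_
      have hnoinv := htrans (Or.inl (by rw [hn] at hq; omega))
      have huniq : ∀ H K : Subgroup X, Nat.card H = 2 → Nat.card K = 2 → H = K := by
        have hc : ∀ H : Subgroup X, Nat.card H = 2 → H = center X := by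
          intro H hH
          refine Subgroup.eq_of_le_of_card_ge (fun x hx => by_contra fun hne => hnoinv x hne ?_) (by omega)
          have : (⟨x, hx⟩ : H) ^ 2 = 1 := by rw [← hH]; exact pow_card_eq_one'
          rw [← pow_two]; exact congrArg Subtype.val this
        exact fun H K hH hK => (hc H hH).trans (hc K hK).symm
      rcases Cfsg.Agent.Lib.UniqueInvolution.isCyclic_or_quaternion h.hX huniq with hcyc | ⟨-, m, hm, ⟨e⟩⟩
      · exact absurd ⟨⟨fun a b => (IsCyclic.commGroup (α := X)).mul_comm a b⟩⟩ h.hna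
      · have hc8 := Nat.card_congr e.toEquiv
        rw [hn, Nat.card_eq_fintype_card, QuaternionGroup.card] at hc8
        have hm1 : m = 1 := by
          by_contra hm1
          have := Nat.pow_le_pow_right (show 0 < 2 by omega) (show 2 ≤ m by omega)
          omega
        subst hm1
        exact ⟨e⟩
    · exfalso
      obtain ⟨u, hu, hu2⟩ := hexi le_rfl
      exact htrans (Or.inr (by rw [hn] at hq; omega)) u hu hu2
  obtain ⟨u, hu, hu2⟩ := hexi (by omega)
  have hltu : center X < h.sc.span u :=
    lt_of_le_not_ge (h.sc.center_le_span u) fun hle => hu (hle (h.sc.self_mem_span u))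
  have hKC : h.sc.span u ≤ h.sc.centMod ⊥ u := by
    rintro y (hy | hy)
    · exact h.sc.center_le_centMod ⊥ u hy
    · rw [h.sc.mem_centMod, show y = u * (u⁻¹ * y) by group, h.sc.comm_left, commutatorElement_self,
        commutatorElement_eq_one_iff_mul_comm.2 (mem_center_iff.1 hy u).symm, one_mul]
      exact one_mem _
  have hK4 : Nat.card (h.sc.span u) = 4 := by
    have := h.lt_card hltu
    have := h.sc.span_card u
    omega
  have hsharp : ∀ y ∈ h.sc.centMod ⊥ u, y ∉ h.sc.span u → y * y ≠ 1 := fun y hyC hyK hy2 =>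
    h.no_pair h2 hu2 hu hy2 hyK (mem_bot.1 hyC)
  have hC1 := h.sc.card_centMod_ge ⊥ u (T := center X) (fun g => h.sc.comm_mem g u)
  have hn5' : n = 5 := by
    by_contra hne
    have h64 : 64 ≤ Nat.card X := by rw [hn]; exact le_trans (by norm_num) (Nat.pow_le_pow_right (by omega) (show 6 ≤ n by omega))
    rw [h2] at hC1
    obtain ⟨y, hyC, hyK, hy2⟩ := h.sc.exists_sq_mem (L := ⊥) bot_le hbot (C := h.sc.centMod ⊥ u)
      (K := h.sc.span u) (h.sc.center_le_span u) hKC (by omega)
    exact hsharp y hyC hyK (mem_bot.1 hy2)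
  subst hn5'
  have hX32 : Nat.card X = 32 := by simpa using hn
  refine Or.inr ⟨hX32, ?_⟩
  set C := h.sc.centMod ⊥ u
  have hCt : C ≠ ⊤ := fun e => hu (mem_center_iff.2 fun g => commutatorElement_eq_one_iff_mul_comm.1
    (mem_bot.1 (show g ∈ C by rw [e]; exact mem_top g)))
  have hC16 : Nat.card C = 16 := by
    have hlt := h.lt_card (lt_of_le_of_ne le_top hCt)
    rw [card_top] at hlt
    rw [h2] at hC1
    omega
  rw [Nat.card_eq_fintype_card, Fintype.card_subtype]
  set I := Finset.univ.filter fun x : X => x * x = 1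
  have hsplit := Finset.card_filter_add_card_filter_not (s := I) (fun x => x ∈ C)
  have hin : (I.filter fun x => x ∈ C).card = 4 := by
    have e : (I.filter fun x => x ∈ C) = Finset.univ.filter fun x => x ∈ h.sc.span u := by
      ext x
      simp only [I, Finset.mem_filter, Finset.mem_univ, true_and]
      refine ⟨fun hx => by_contra fun hne => hsharp x hx.2 hne hx.1, fun hx => ⟨?_, hKC hx⟩⟩
      rcases h.sc.mem_span.1 hx with hx' | hx'
      · exact h.sc.cen_sq x hx'
      · rw [show x = u * (u⁻¹ * x) by group, h.sc.sq_mul, hu2, h.sc.cen_sq _ hx', mul_one,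
          commutatorElement_eq_one_iff_mul_comm.2 (mem_center_iff.1 hx' u).symm, one_mul]
    rw [e, ← Fintype.card_subtype, ← Nat.card_eq_fintype_card, hK4]
  have hout : (I.filter fun x => x ∉ C).card = 8 := by
    set O := Finset.univ.filter fun x : X => x ∉ C
    have hO : O.card = 16 := by
      have e : O = (Finset.univ.filter fun x : X => x ∈ C)ᶜ := by ext x; simp [O]
      rw [e, Finset.card_compl, ← Fintype.card_subtype, ← Nat.card_eq_fintype_card, ← Nat.card_eq_fintype_card,
        hC16, hX32]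
    have e1 : (I.filter fun x => x ∉ C) = O.filter fun x => x * x = 1 := by
      ext x; simp [I, O, and_comm]
    rw [e1]
    have hzz : ∀ {a b : X}, a ∈ center X → a ≠ 1 → b ∈ center X → b ≠ 1 → a * b = 1 := fun ha ha1 hb hb1 =>
      mem_bot.1 (SqCentral.index_two h.sc bot_le hbot ha hb (fun e => ha1 (mem_bot.1 e))
        (fun e => hb1 (mem_bot.1 e)))
    have flip : ∀ {g : X}, g ∉ C → (g * u * (g * u) = 1 ↔ g * g ≠ 1) ∧ g * u ∉ C := by
      intro g hg
      have hk : ⁅u, g⁆ ≠ 1 := fun e => hg (by
        show ⁅g, u⁆ ∈ (⊥ : Subgroup X)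
        rw [h.sc.comm_symm, e]; exact one_mem _)
      refine ⟨?_, fun hm => hg ?_⟩
      · rw [h.sc.sq_mul, hu2, mul_one]
        refine ⟨fun e hgg => hk (by rwa [hgg, mul_one] at e), fun hgg => hzz (h.sc.comm_mem u g) hk (h.sc.sq_mem g) hgg⟩
      · have huC : u ∈ C := hKC (h.sc.self_mem_span u)
        have := C.mul_mem hm (C.inv_mem huC)
        rwa [mul_inv_cancel_right] at this
    have hcard : (O.filter fun x => x * x = 1).card = (O.filter fun x => ¬ x * x = 1).card := by
      refine le_antisymm (Finset.card_le_card_of_injOn (fun x => x * u) (fun g hg => ?_) (mul_left_injective u).injOn)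
        (Finset.card_le_card_of_injOn (fun x => x * u) (fun g hg => ?_) (mul_left_injective u).injOn)
      · simp only [O, Finset.coe_filter, Finset.mem_filter, Finset.mem_univ, true_and, Set.mem_setOf_eq] at hg ⊢
        exact ⟨(flip hg.1).2, fun e => (flip hg.1).1.1 e hg.2⟩
      · simp only [O, Finset.coe_filter, Finset.mem_filter, Finset.mem_univ, true_and, Set.mem_setOf_eq] at hg ⊢
        exact ⟨(flip hg.1).2, (flip hg.1).1.2 hg.2⟩
    have := Finset.card_filter_add_card_filter_not (s := O) (fun x => x * x = 1)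
    omega
  omega

end SmallData

end Cfsg.Agent.Lib.OddAutTwo
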