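import Mathlib
import Cfsg.Prelude.Def_Transfer
import Cfsg.Agent.Lib.PGroupFrattini
import Cfsg.Agent.Lib.OddAutTwo.Exponent

/-! A nonabelian two-group without normal elementary abelian subgroups of order eight, generated by the
displacements of an odd-order automorphism group, is special. -/

set_option autoImplicit false

namespace Cfsg.Agent.Lib.OddAutTwo

open Subgroup Cfsg
open scoped commutatorElement

variable {X : Type*} [Group X] [Finite X]

theorem comm_pow_central {N : Subgroup X} (hN : N ≤ center X) {x y : X} (h : ⁅x, y⁆ ∈ N) (n : ℕ) :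
    ⁅x, y ^ n⁆ = ⁅x, y⁆ ^ n := by
  induction n with
  | zero => simp
  | succ n ih =>
    calc ⁅x, y ^ (n + 1)⁆ = ⁅x, y ^ n⁆ * (y ^ n * ⁅x, y⁆ * (y ^ n)⁻¹) := by
          simp [commutatorElement_def, pow_succ, mul_assoc]
      _ = ⁅x, y⁆ ^ (n + 1) := by
          rw [mem_center_iff.1 (hN h) (y ^ n), mul_inv_cancel_right, ih, pow_succ]

/-- The commutator subgroup is central in the fixed case and has exponent two. -/
theorem comm_sq_one (hX : IsPGroup 2 X) {A : Subgroup (MulAut X)}
    (hcc : ∀ H : Subgroup X, H.Normal → Inv A H → IsMulCommutative H → H ≤ center X)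
    (hc : commutator X ≤ center X) (x y : X) : ⁅x, y⁆ * ⁅x, y⁆ = 1 := by
  have hmem : ∀ u v : X, ⁅u, v⁆ ∈ center X := fun u v =>
    hc (commutator_mem_commutator (mem_top u) (mem_top v))
  have step : ∀ e : ℕ, (∀ u v : X, ⁅u, v⁆ ^ 2 ^ e = 1) → ∀ u v : X, ⁅u, v⁆ ^ 2 = 1 := by
    intro e
    induction e with
    | zero =>
      intro h u v
      have := h u v
      rw [pow_zero, pow_one] at this
      rw [this, one_pow]
    | succ e ih =>
      intro h
      rcases Nat.eq_zero_or_pos e with rfl | he
      · exact fun u v => by simpa using h u v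
      refine ih fun u v => ?_
      let S : Set X := (center X : Set X) ∪ {z | ∃ w : X, z = w ^ 2 ^ e}
      have hSn : ∀ g : X, ∀ z ∈ S, g * z * g⁻¹ ∈ S := by
        rintro g z (hz | ⟨w, rfl⟩)
        · exact Or.inl ((inferInstance : (center X).Normal).conj_mem z hz g)
        · exact Or.inr ⟨g * w * g⁻¹, (conj_pow).symm⟩
      have hcom : ∀ a ∈ S, ∀ b ∈ S, a * b = b * a := by
        rintro a (ha | ⟨w, rfl⟩) b (hb | ⟨w', rfl⟩)
        · exact (mem_center_iff.1 ha b).symm
        · exact (mem_center_iff.1 ha _).symm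
        · exact mem_center_iff.1 hb _
        · rw [← commutatorElement_eq_one_iff_mul_comm, comm_pow_central le_rfl (hmem _ _),
            ← commutatorElement_inv, comm_pow_central le_rfl (hmem _ _), inv_pow, ← pow_mul, ← pow_add,
            show e + e = (e + 1) + (e - 1) by omega, pow_add, pow_mul, h, one_pow, inv_one]
      have h1 : closure S ≤ centralizer S := (closure_le _).2 fun a ha => mem_centralizer_iff.2 fun b hb =>
        hcom b hb a ha
      have h2 : closure S ≤ centralizer (closure S : Set X) := le_centralizer_iff.1 ((closure_le _).2 fun a ha =>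
        mem_centralizer_iff.2 fun b hb => (mem_centralizer_iff.1 (h1 hb) a ha).symm)
      have hD := hcc (closure S) ⟨fun z hz g => ?_⟩ ?_ (le_centralizer_iff_isMulCommutative.1 h2)
      · have := hD (subset_closure (Or.inr ⟨v, rfl⟩))
        rw [← comm_pow_central le_rfl (hmem _ _), commutatorElement_eq_one_iff_mul_comm]
        exact mem_center_iff.1 this u
      · have hle : closure S ≤ (closure S).comap (MulAut.conj g).toMonoidHom :=
          (closure_le _).2 fun a ha => subset_closure (hSn g a ha)
        exact hle hz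
      · intro φ hφ z hz
        have hle : closure S ≤ (closure S).comap φ.toMonoidHom := (closure_le _).2 fun a ha => subset_closure (by
          rcases ha with ha | ⟨w, rfl⟩
          · exact Or.inl (inv_of_characteristic A (center X) φ hφ a ha)
          · exact Or.inr ⟨φ w, map_pow φ w _⟩)
        exact hle hz
  obtain ⟨k, hk⟩ := IsPGroup.iff_card.1 hX
  have := step k (fun u v => by rw [← hk]; exact pow_card_eq_one') x y
  rwa [pow_two] at this

/-- The structure obtained from the hypotheses. -/
theorem special_structure (hX : IsPGroup 2 X) (hna : ¬ IsMulCommutative X) {A : Subgroup (MulAut X)}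
    (hA : Odd (Nat.card A)) (hXA : Subgroup.closure {g : X | ∃ φ ∈ A, ∃ x : X, g = x⁻¹ * φ x} = ⊤)
    (hE : ∀ E : Subgroup X, E.Normal → IsElementaryAbelian 2 E → Nat.card E ≤ 4) :
    commutator X = center X ∧ (∀ x : X, x * x ∈ center X) ∧ (∀ z ∈ center X, z * z = 1) ∧
      Nat.card (center X) ≤ 4 := by
  by_cases hfix : ∀ H : Subgroup X, H.Normal → Inv A H → IsMulCommutative H → ∀ φ ∈ A, ∀ h ∈ H, φ h = h
  · have hcc : ∀ H : Subgroup X, H.Normal → Inv A H → IsMulCommutative H → H ≤ center X :=
      fun H hn hi hc => by haveI := hn; exact le_center_of_fixed hXA H (hfix H hn hi hc)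
    have hc : commutator X ≤ center X := commutator_le_of_maximal hX inferInstance
      (inv_of_characteristic A _) le_rfl fun H hn hi hc _ => hcc H hn hi hc
    have hs := comm_sq_one hX hcc hc
    have hmem : ∀ u v : X, ⁅u, v⁆ ∈ center X := fun u v =>
      hc (commutator_mem_commutator (mem_top u) (mem_top v))
    have hsq : ∀ x : X, x * x ∈ center X := fun x => mem_center_iff.2 fun g => by
      rw [← commutatorElement_eq_one_iff_mul_comm, ← pow_two, comm_pow_central le_rfl (hmem g x), pow_two]
      exact hs g x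
    have hZ : center X ≤ commutator X := fun z hz => by
      refine mem_of_fix_mod hX hA hXA _ le_rfl fun φ hφ => ?_
      rw [hfix (center X) inferInstance (inv_of_characteristic A _)
        inferInstance φ hφ z hz, inv_mul_cancel]
      exact one_mem _
    have hzz : ∀ z ∈ center X, z * z = 1 := by
      let T : Subgroup X :=
        { carrier := {z | z ∈ center X ∧ z * z = 1}
          one_mem' := ⟨one_mem _, one_mul 1⟩
          mul_mem' := fun {a b} ha hb => ⟨mul_mem ha.1 hb.1, by
            calc a * b * (a * b) = a * (b * a) * b := by simp only [mul_assoc]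
              _ = a * (a * b) * b := by rw [mem_center_iff.1 ha.1 b]
              _ = a * a * (b * b) := by simp only [mul_assoc]
              _ = 1 := by rw [ha.2, hb.2, one_mul]⟩
          inv_mem' := fun {a} ha => ⟨inv_mem ha.1, by rw [← mul_inv_rev, ha.2, inv_one]⟩ }
      have : commutator X ≤ T := by
        rw [_root_.commutator_def, commutator_le]
        exact fun u _ v _ => ⟨hmem u v, hs u v⟩
      exact fun z hz => (this (hZ hz)).2
    exact ⟨le_antisymm hc hZ, hsq, hzz, hE _ inferInstance ⟨inferInstance, fun a ha => by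
      rw [pow_two]; exact hzz a ha⟩⟩
  push Not at hfix
  obtain ⟨D, hDn, hDi, hDc, φ, hφ, x, hx, hφx⟩ := hfix
  obtain ⟨B, hDB, ⟨hBn, hBi, hBc⟩, hBmax⟩ := exists_maxAbelian A hDn hDi hDc
  obtain ⟨W, memW, hWn, hWi, hcard, hdich, α, hα, hcyc⟩ :=
    exists_fourCycle hX hA hE hBn hBi hBc ⟨φ, hφ, x, hDB hx, hφx⟩
  have hnoExt : ∀ t : X, t * t = 1 → (∀ y : X, ⁅y, t⁆ ∈ W) → t ∈ W := by
    intro t ht hconj
    by_contra htW
    obtain ⟨E, hEn, hEe, hWE, -⟩ := extend_elementary hWn hcyc.sq ht htW
      (fun w hw => (hcyc.comm hw t).symm) hconj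
    have h1 := hE E hEn hEe
    have h2 : Nat.card W < Nat.card E := lt_of_le_of_ne (card_le_of_le hWE.le) fun he =>
      hWE.ne (Subgroup.eq_of_le_of_card_ge hWE.le he.ge)
    omega
  have hb : MovedData A B W α := ⟨hBn, hBi, hBc, hBmax, memW, hWn, hWi, hcard, hdich, hα, hcyc, hnoExt⟩
  obtain ⟨a, ha, hexp, hne⟩ := hb.exists_exp hX
  have key : (∀ y : X, y * y ∈ W) ∧ center X ≤ W := by
    rcases Nat.lt_or_ge a 3 with ha3 | ha3
    swap
    · exact (hb.false_of_big hX hna hXA ha3 hexp hne).elim
    rcases (show a = 1 ∨ a = 2 by omega) with rfl | rfl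
    · have hBW : B ≤ W := fun b hb' => (memW b).2 ⟨hb', by
        have := hexp b hb'
        rwa [pow_one, pow_two] at this⟩
      have hW : ∀ H : Subgroup X, H.Normal → Inv A H → IsMulCommutative H → W ≤ H → H ≤ W :=
        fun H hn hi hc hle => le_trans (hBmax H hn hi hc (hBW.trans hle)) hBW
      have hcW : commutator X ≤ W := commutator_le_of_maximal hX hWn hWi hcyc.cen hW
      have hz : center X ≤ W := hW (center X) inferInstance (inv_of_characteristic A _) inferInstance hcyc.cen
      refine ⟨fun y => hz (mem_center_iff.2 fun g => ?_), hz⟩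
      have hk : ⁅g, y⁆ ∈ W := hcW (commutator_mem_commutator (mem_top g) (mem_top y))
      rw [← commutatorElement_eq_one_iff_mul_comm, ← pow_two, comm_pow_central hcyc.cen hk, pow_two]
      exact hcyc.sq _ hk
    · have he : MovedExp A B W α 2 1 := ⟨hb, rfl, fun b hb' => by
        rw [← pow_add]; exact hexp b hb', by simpa using hne⟩
      refine ⟨he.sq_mem_of_d_one hX hXA, fun z hz => ?_⟩
      have hzB : z ∈ B := he.self_centralizing hX fun b _ => commutatorElement_eq_one_iff_mul_comm.2
        (mem_center_iff.1 hz b).symm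
      obtain ⟨y, hy⟩ : ∃ y, y ∉ B := by
        by_contra hn
        push Not at hn
        exact hna ⟨⟨fun u v => hb.comm (hn u) (hn v)⟩⟩
      rcases he.zero_or_inj hXA y with h0 | hinj
      · refine absurd (he.self_centralizing hX fun b hb' => ?_) hy
        have := h0 _ (he.pi_mem hb')
        rwa [he.mfun_eq y hb', pow_one] at this
      · have := hinj _ (he.pi_mem hzB) (by
          rw [he.mfun_eq y hzB, pow_one]
          exact commutatorElement_eq_one_iff_mul_comm.2 (mem_center_iff.1 hz y))
        exact (memW z).2 ⟨hzB, by rw [← pow_two]; exact this⟩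
  have hWeq : center X = W := le_antisymm key.2 hcyc.cen
  have hcW : commutator X ≤ W := by
    rw [_root_.commutator_def, commutator_le]
    intro u _ v _
    have : ⁅u, v⁆ = (u * v) * (u * v) * (v⁻¹ * (u * u)⁻¹ * v) * (v * v)⁻¹ := by
      simp [commutatorElement_def, mul_assoc]
    rw [this]
    refine mul_mem (mul_mem (key.1 _) ?_) (inv_mem (key.1 v))
    have := hWn.conj_mem _ (inv_mem (key.1 u)) v⁻¹
    rwa [inv_inv] at this
  have hne' : commutator X ≠ ⊥ := fun h => hna ⟨⟨fun u v => commutatorElement_eq_one_iff_mul_comm.1 (by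
    have := commutator_mem_commutator (H₁ := (⊤ : Subgroup X)) (H₂ := ⊤) (mem_top u) (mem_top v)
    rwa [← _root_.commutator_def, h, mem_bot] at this)⟩⟩
  obtain ⟨w, hw, hw1⟩ := (commutator X).bot_or_exists_ne_one.resolve_left hne'
  have hceq : commutator X = W :=
    hb.irr hcW (fun y hy => inv_of_characteristic A _ α hα y hy) hw hw1
  rw [hWeq]
  exact ⟨hceq, key.1, hcyc.sq, hcard.le⟩

end Cfsg.Agent.Lib.OddAutTwo
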